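import Cfsg.Agent.Lib.Transfer.Alperin
import Cfsg.Agent.Lib.Transfer.Basic
import Mathlib

/-! Consequences of Alperin's fusion theorem with tame intersections. -/

set_option autoImplicit false

namespace Cfsg.Agent.Lib.GenStruct

open Subgroup Cfsg.Agent.Lib.Transfer

variable {G : Type*} [Group G] [Finite G] {p : ℕ} [hp : Fact p.Prime]

/-- The trace of `P` on the normalizer of a tame intersection, as a Sylow subgroup. -/
theorem exists_sylow_trace (P : Sylow p G) (N : Subgroup G)
    (h : ¬ p ∣ ((P : Subgroup G) ⊓ N).relIndex N) :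
    ∃ T : Sylow p N, (T : Subgroup N) = ((P : Subgroup G) ⊓ N).subgroupOf N := by
  have hpg : IsPGroup p (((P : Subgroup G) ⊓ N).subgroupOf N) :=
    (P.2.to_le inf_le_left).comap_subtype
  exact ⟨hpg.toSylow h, rfl⟩

/-- Every fusion of elements inside `P` is a product of fusions by `p`-elements of normalizers of
tame intersections and elements of `N(P)`. -/
theorem fusion_mem_of_tame (P : Sylow p G) (R : Subgroup G)
    (h1 : ∀ d ∈ (P : Subgroup G), ∀ n ∈ normalizer ((P : Subgroup G) : Set G), d⁻¹ * (n⁻¹ * d * n) ∈ R)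
    (h2 : ∀ Q : Sylow p G, TameInter P Q → ∀ x ∈ normalizer ((((P : Subgroup G) ⊓ (Q : Subgroup G)) : Subgroup G) : Set G),
      (∃ k : ℕ, orderOf x = p ^ k) → ∀ d ∈ (P : Subgroup G) ⊓ (Q : Subgroup G), d⁻¹ * (x⁻¹ * d * x) ∈ R) :
    ∀ (m : ℕ) (D : Set G), Nat.card G - D.ncard ≤ m → D ⊆ (P : Set G) → ∀ g : G,
      (fun a => g⁻¹ * a * g) '' D ⊆ (P : Set G) → ∀ d ∈ D, d⁻¹ * (g⁻¹ * d * g) ∈ R := by
  intro m
  induction m using Nat.strong_induction_on with
  | _ m ih =>
  intro D hm hD g hg
  obtain ⟨l, hl, rfl⟩ := alperin P D g hD hg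
  clear hD hg
  induction l generalizing D with
  | nil => intro d _; simp [chainProd]
  | cons s l ihl =>
    obtain ⟨⟨hn, htame⟩, hDH, hl'⟩ := hl
    intro d hd
    set H := (P : Subgroup G) ⊓ (s.1 : Subgroup G) with hH
    set N := normalizer (H : Set G) with hN
    have hinj : Function.Injective (fun a => s.2⁻¹ * a * s.2) := fun a b h => by simpa using h
    have hrest := ihl ((fun a => s.2⁻¹ * a * s.2) '' D)
      (by rw [Set.ncard_image_of_injective _ hinj]; exact hm) hl' _ ⟨d, hd, rfl⟩
    suffices hstep : d⁻¹ * (s.2⁻¹ * d * s.2) ∈ R by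
      have := mul_mem hstep hrest
      convert this using 1
      simp [chainProd, mul_assoc]
    have hdH : d ∈ H := hDH hd
    by_cases hHP : H = (P : Subgroup G)
    · refine h1 d hdH.1 _ ?_
      rw [hN, hHP] at hn; exact hn
    · have hlt : H < (P : Subgroup G) ⊓ N :=
        lt_inf_normalizer P.2 (lt_of_le_of_ne inf_le_left hHP)
      obtain ⟨T, hT⟩ := exists_sylow_trace P N htame.1
      let U : Subgroup N := closure {x : N | ∃ k : ℕ, orderOf x = p ^ k}
      have hU : ∀ T' : Sylow p N, (T' : Subgroup N) ≤ U := fun T' x hx => by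
        obtain ⟨k, hk⟩ := IsPGroup.iff_orderOf.1 T'.2 ⟨x, hx⟩
        exact subset_closure ⟨k, by rw [← hk]; exact orderOf_injective (T' : Subgroup N).subtype Subtype.val_injective ⟨x, hx⟩⟩
      obtain ⟨u, hu, huT⟩ := exists_smul_eq_of_le (hU T) (hU ((⟨s.2, hn⟩ : N) • T))
      set w : N := u⁻¹ * ⟨s.2, hn⟩ with hw
      have hwn : w ∈ normalizer ((T : Subgroup N) : Set N) := by
        apply Sylow.smul_eq_iff_mem_normalizer.1
        rw [hw, mul_smul, ← huT, inv_smul_smul]
      have hU2 : ∀ v ∈ U, ∀ a ∈ H, a⁻¹ * ((v : G)⁻¹ * a * v) ∈ R := by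
        intro v hv
        induction hv using closure_induction with
        | mem x hx =>
          obtain ⟨k, hk⟩ := hx
          exact fun a ha => h2 s.1 htame x x.2 ⟨k, by rw [Subgroup.orderOf_coe, hk]⟩ a ha
        | one => intro a _; simp
        | mul x y _ _ hx hy =>
          intro a ha
          have hxa : (x : G)⁻¹ * a * x ∈ H := by
            have := (mem_normalizer_iff''.1 x.2 a).1 ha
            exact this
          have := mul_mem (hx a ha) (hy _ hxa)
          convert this using 1
          simp [mul_assoc]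
        | inv x _ hx =>
          intro a ha
          have hxa : (x : G) * a * (x : G)⁻¹ ∈ H := (mem_normalizer_iff.1 x.2 a).1 ha
          have := inv_mem (hx _ hxa)
          convert this using 1
          simp [mul_assoc]
      have hd' : (u : G)⁻¹ * d * u ∈ H := (mem_normalizer_iff''.1 u.2 d).1 hdH
      have hw2 : ((u : G)⁻¹ * d * u)⁻¹ * ((w : G)⁻¹ * ((u : G)⁻¹ * d * u) * w) ∈ R := by
        refine ih (Nat.card G - ((((P : Subgroup G) ⊓ N : Subgroup G) : Set G)).ncard) ?_
          (((P : Subgroup G) ⊓ N : Subgroup G) : Set G) le_rfl ?_ (w : G) ?_ _ (hlt.le hd')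
        · have h3 : D.ncard ≤ (H : Set G).ncard := Set.ncard_le_ncard hDH (Set.toFinite _)
          have h4 : (H : Set G).ncard < (((P : Subgroup G) ⊓ N : Subgroup G) : Set G).ncard :=
            Set.ncard_lt_ncard (SetLike.coe_ssubset_coe.2 hlt) (Set.toFinite _)
          have h5 : (((P : Subgroup G) ⊓ N : Subgroup G) : Set G).ncard ≤ Nat.card G := Set.ncard_le_card _
          omega
        · exact fun x hx => hx.1
        · rintro _ ⟨a, ha, rfl⟩
          have hmem : (⟨a, ha.2⟩ : N) ∈ (T : Subgroup N) := by rw [hT]; exact ha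
          have := (mem_normalizer_iff''.1 hwn _).1 hmem
          rw [hT] at this
          exact this.1
      have := mul_mem (hU2 u hu d hdH) hw2
      convert this using 1
      simp [hw, mul_assoc]

end Cfsg.Agent.Lib.GenStruct
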