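import Cfsg.Agent.Lib.GenStruct.RudvalisType

/-!
Structure of two-groups of order at least `2^14` satisfying the Rudvalis type conditions.
-/

set_option autoImplicit false
set_option linter.style.haveILetI false
open Subgroup
open scoped commutatorElement

namespace Cfsg.Agent.Lib.RudvalisType

variable {Q : Type*} [Group Q] [Finite Q]

local notation "Zc" => Subgroup.upperCentralSeries Q

theorem counts (hQ : IsPGroup 2 Q) (hlarge : 2 ^ 14 ≤ Nat.card Q)
    (h4 : Nat.card (Zc 4) = 16) (W : Subgroup Q) (hW : W = centralizer ((Zc 3 : Subgroup Q) : Set Q))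
    (hc : Nat.card (phiOf W) ≤ 8) :
    Nat.card Q = 2 ^ 14 ∧ W.index = 8 ∧ Nat.card (phiOf W) = 8 ∧ phiOf W = Zc 3 ∧
      (phiOf W).relIndex W = 2 ^ 8 := by
  obtain ⟨hWn, hidx, hΦn, hΦ3, -⟩ := setup hQ hlarge h4 W hW hc
  obtain ⟨hcomm, hsq⟩ := image_elementary hQ W
  have hlarge' : 16 < Nat.card Q := lt_of_lt_of_le (by norm_num) hlarge
  have hb := fixedMod_le_two_pow hQ hcomm hsq (fixedMod_top hQ hlarge' h4 W hc) _ W rfl
  have hfix : fixedMod W (phiOf W) W = W.map (QuotientGroup.mk' (phiOf W)) :=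
    inf_eq_left.2 fun v hv => mem_centralizer_iff.2 fun u hu => hcomm u hu v hv
  have hle : phiOf W ≤ W := map_subtype_le _
  have hV := Cfsg.Agent.Lib.Coprime.card_map_mul_card_inf_ker (QuotientGroup.mk' (phiOf W)) W
  rw [QuotientGroup.ker_mk', inf_eq_right.2 hle, ← hfix] at hV
  obtain ⟨f, hf⟩ := card_pow hQ (phiOf W)
  obtain ⟨r, hr⟩ := hQ.index W
  obtain ⟨k, hk⟩ := IsPGroup.iff_card.1 hQ
  obtain ⟨v, hv⟩ := IsPGroup.iff_card.1 ((hQ.to_quotient (phiOf W)).to_subgroup (fixedMod W (phiOf W) W))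
  have hQc : Nat.card Q = 2 ^ (v + f + r) := by
    rw [← W.card_mul_index, ← hV, hv, hf, hr, pow_add, pow_add]
  have hvr : v ≤ 2 ^ r := by
    rw [hv, hr] at hb
    exact (Nat.pow_le_pow_iff_right (by norm_num)).1 hb
  have hr3 : r ≤ 3 := by
    rw [hr, show (8 : ℕ) = 2 ^ 3 from rfl] at hidx
    exact (Nat.pow_le_pow_iff_right (by norm_num)).1 hidx
  have hf3 : f ≤ 3 := by
    rw [hf, show (8 : ℕ) = 2 ^ 3 from rfl] at hc
    exact (Nat.pow_le_pow_iff_right (by norm_num)).1 hc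
  have h14 : 14 ≤ v + f + r := by
    rw [hQc] at hlarge
    exact (Nat.pow_le_pow_iff_right (by norm_num)).1 hlarge
  obtain rfl : r = 3 := by interval_cases r <;> norm_num at hvr <;> omega
  norm_num at hvr
  obtain rfl : f = 3 := by omega
  obtain rfl : v = 8 := by omega
  refine ⟨hQc, by simpa using hr, by simpa using hf, ?_, ?_⟩
  · refine eq_of_le_of_card_ge (fun x hx => hΦ3 x hx) ?_
    rw [zc_card hQ hlarge' h4 (by norm_num), hf]
  · have h := card_mul_index ((phiOf W).subgroupOf W)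
    rw [Nat.card_congr (subgroupOfEquivOfLe hle).toEquiv, hf] at h
    rw [hf, hv, ← h, mul_comm] at hV
    exact (Nat.eq_of_mul_eq_mul_left (by norm_num) hV).symm

theorem derived_eq (hQ : IsPGroup 2 Q) (hlarge : 2 ^ 14 ≤ Nat.card Q)
    (h4 : Nat.card (Zc 4) = 16) (W : Subgroup Q) (hW : W = centralizer ((Zc 3 : Subgroup Q) : Set Q))
    (hc : Nat.card (phiOf W) ≤ 8) (hd : ∀ U : Subgroup ↥W, U.index ≤ 16 → frattini ↥W ≤ U) :
    commutator ↥W = frattini ↥W ∧ (∀ z ∈ frattini ↥W, z ^ 2 = 1) ∧ frattini ↥W ≤ center ↥W ∧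
      (frattini ↥W).index = 2 ^ 8 := by
  obtain ⟨-, -, hΦc, hΦ3, hrel⟩ := counts hQ hlarge h4 W hW hc
  have hW2 := hQ.to_subgroup W
  have hcen : frattini ↥W ≤ center ↥W := fun z hz => mem_center_iff.2 fun y => Subtype.ext (by
    have h1 : (z : Q) ∈ Zc 3 := hΦ3 ▸ mem_map_of_mem W.subtype hz
    have h2 : (y : Q) ∈ centralizer ((Zc 3 : Subgroup Q) : Set Q) := hW.le y.2
    exact ((mem_centralizer_iff.1 h2) _ h1).symm)
  have hle : commutator ↥W ≤ frattini ↥W := Cfsg.Agent.Lib.PGroupFrattini.commutator_le_frattini hW2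
  have hcsq : ∀ z ∈ commutator ↥W, z ^ 2 = 1 := by
    intro z hz
    rw [_root_.commutator_def] at hz
    induction hz using closure_induction with
    | mem x hx =>
      obtain ⟨a, -, b, -, rfl⟩ := hx
      have h1 : Commute (⁅a, b⁆) a :=
        (mem_center_iff.1 (hcen (hle (commutator_mem_commutator (mem_top a) (mem_top b)))) a).symm
      have h2 : a * a * b * (a * a)⁻¹ * b⁻¹ = 1 := by
        have h3 := mem_center_iff.1 (hcen (Cfsg.Agent.Lib.PGroupFrattini.pow_mem_frattini hW2 a)) b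
        rw [pow_two] at h3
        rw [← h3, mul_inv_cancel_right, mul_inv_cancel]
      have h4 : ⁅a, b⁆ * ⁅a, b⁆ = a * a * b * (a * a)⁻¹ * b⁻¹ := by
        calc ⁅a, b⁆ * ⁅a, b⁆ = a * ⁅a, b⁆ * a⁻¹ * ⁅a, b⁆ := by rw [← h1.eq, mul_inv_cancel_right]
          _ = a * a * b * (a * a)⁻¹ * b⁻¹ := by simp only [commutatorElement_def]; group
      rw [pow_two, h4, h2]
    | one => simp
    | mul x y hx hy ihx ihy =>
      have hxy : Commute x y := (mem_center_iff.1 (hcen (hle (by rw [_root_.commutator_def]; exact hx))) y).symm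
      rw [hxy.mul_pow, ihx, ihy, one_mul]
    | inv x hx ih => rw [inv_pow, ih, inv_one]
  let C := QuotientGroup.mk' (commutator ↥W)
  have hcomm : ∀ a b : ↥W, C a * C b = C b * C a := fun a b => by
    rw [← commutatorElement_eq_one_iff_mul_comm, ← map_commutatorElement]
    exact (QuotientGroup.eq_one_iff (N := commutator ↥W) _).2 (commutator_mem_commutator (mem_top a) (mem_top b))
  let sq : ↥W →* ↥W ⧸ commutator ↥W :=
    { toFun := fun a => C a * C a
      map_one' := by simp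
      map_mul' := fun a b => by
        rw [map_mul]
        rw [mul_assoc, ← mul_assoc (C b), hcomm b a, mul_assoc, mul_assoc] }
  have hrange : sq.range ≤ (frattini ↥W).map C := by
    rintro _ ⟨a, rfl⟩
    exact ⟨a ^ 2, Cfsg.Agent.Lib.PGroupFrattini.pow_mem_frattini hW2 a, by rw [map_pow, pow_two]; rfl⟩
  have hcardΦ : Nat.card (frattini ↥W) = 8 := by
    rw [← card_map_of_injective W.subtype_injective]; exact hΦc
  have hKidx : sq.ker.index ≤ 8 := by
    rw [index_ker]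
    exact (card_le_of_le hrange).trans ((Nat.le_of_dvd Nat.card_pos (card_map_dvd _ _)).trans hcardΦ.le)
  have heq : commutator ↥W = frattini ↥W := by
    refine le_antisymm hle fun z hz => ?_
    have hzK : z ∈ sq.ker := hd sq.ker (by omega) hz
    have hzΦ : (⟨z, hzK⟩ : ↥sq.ker) ∈ frattini ↥sq.ker := by
      rw [← SetLike.mem_coe]
      simp only [SetLike.mem_coe]
      simp only [frattini, Order.radical, mem_iInf]
      intro K hK
      have hKi := (Cfsg.Agent.Lib.PGroupFrattini.coatom_index (p := 2) (hW2.to_subgroup sq.ker) hK).2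
      have h16 : (K.map sq.ker.subtype).index ≤ 16 := by
        rw [index_map_subtype, hKi]; omega
      obtain ⟨k, hk, hkz⟩ := hd _ h16 hz
      rwa [show (⟨z, hzK⟩ : ↥sq.ker) = k from Subtype.ext hkz.symm]
    have hsub : frattini ↥sq.ker ≤ (commutator ↥W).subgroupOf sq.ker := by
      refine Cfsg.Agent.Lib.PGroupFrattini.frattini_le Nat.prime_two _ ?_ fun x => ?_
      · change ⁅(⊤ : Subgroup ↥sq.ker), (⊤ : Subgroup ↥sq.ker)⁆ ≤ _
        rw [commutator_le]
        intro a _ b _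
        show ((⁅a, b⁆ : ↥sq.ker) : ↥W) ∈ commutator ↥W
        rw [show ((⁅a, b⁆ : ↥sq.ker) : ↥W) = ⁅(a : ↥W), (b : ↥W)⁆ from map_commutatorElement sq.ker.subtype a b]
        exact commutator_mem_commutator (mem_top _) (mem_top _)
      · show ((x ^ 2 : ↥sq.ker) : ↥W) ∈ commutator ↥W
        have := x.2
        apply (QuotientGroup.eq_one_iff (N := commutator ↥W) _).1
        show C ((x : ↥W) ^ 2) = 1
        rw [map_pow, pow_two]
        exact this
    exact hsub hzΦ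
  refine ⟨heq, heq ▸ hcsq, hcen, ?_⟩
  rw [← hrel, relIndex, subgroupOf, comap_map_eq_self_of_injective W.subtype_injective]

end Cfsg.Agent.Lib.RudvalisType

namespace Cfsg.Agent.Lib.RudvalisType

/-- Unitriangular `3 × 3` matrices over the field with two elements. -/
@[ext] structure Tri where
  /-- the `(1,2)` entry -/
  a : ZMod 2
  /-- the `(2,3)` entry -/
  b : ZMod 2
  /-- the `(1,3)` entry -/
  c : ZMod 2
deriving DecidableEq, Fintype

namespace Tri

instance : Mul Tri := ⟨fun x y => ⟨x.a + y.a, x.b + y.b, x.c + y.c + x.a * y.b⟩⟩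
instance : One Tri := ⟨⟨0, 0, 0⟩⟩
instance : Inv Tri := ⟨fun x => ⟨x.a, x.b, x.c + x.a * x.b⟩⟩

instance : Group Tri :=
  Group.ofLeftAxioms (by decide) (by decide) (by decide)

/-- The map from the dihedral group of order eight. -/
def ofDihedral : DihedralGroup 4 → Tri
  | DihedralGroup.r i => (⟨1, 1, 0⟩ : Tri) ^ i.val
  | DihedralGroup.sr i => ⟨1, 0, 0⟩ * (⟨1, 1, 0⟩ : Tri) ^ i.val

theorem ofDihedral_mul : ∀ x y : DihedralGroup 4, ofDihedral (x * y) = ofDihedral x * ofDihedral y := by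
  decide

theorem ofDihedral_bijective : Function.Bijective ofDihedral :=
  ⟨by decide, by decide⟩

/-- The group of triples is dihedral of order eight. -/
noncomputable def equivDihedral : DihedralGroup 4 ≃* Tri :=
  MulEquiv.ofBijective (MonoidHom.mk' ofDihedral ofDihedral_mul) ofDihedral_bijective

theorem card : Nat.card Tri = 8 := by rw [Nat.card_eq_fintype_card]; decide

end Tri

variable {Q : Type*} [Group Q] [Finite Q]

local notation "Zc" => Subgroup.upperCentralSeries Q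

theorem z2cases : ∀ k : ZMod 2, k = 0 ∨ k = 1 := by decide

theorem z2add : ∀ i j : ZMod 2, i + j = 0 → i = j := by decide

theorem z2bad : ∀ i j : ZMod 2, 1 + i = i → j = j → False := by decide

/-- A power by an element of the field with two elements. -/
def pw (x : Q) (i : ZMod 2) : Q := x ^ i.val

theorem pw_add {x : Q} (hx : x ^ 2 = 1) (i j : ZMod 2) : pw x (i + j) = pw x i * pw x j := by
  rw [pow_two] at hx
  obtain rfl | rfl : i = 0 ∨ i = 1 := by revert i; decide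
  all_goals obtain rfl | rfl : j = 0 ∨ j = 1 := by revert j; decide
  all_goals simp [pw, show (1 + 1 : ZMod 2) = 0 by decide, ZMod.val_one, hx]

theorem mem_step (hQ : IsPGroup 2 Q) (hlarge : 16 < Nat.card Q) (h4 : Nat.card (Zc 4) = 16)
    {i : ℕ} (hi : i < 4) {z x : Q} (hz : z ∈ Zc (i + 1)) (hz' : z ∉ Zc i) (hx : x ∈ Zc (i + 1))
    (hx' : x ∉ Zc i) : z⁻¹ * x ∈ Zc i := by
  have hle : Zc i ≤ Zc (i + 1) := Subgroup.upperCentralSeries_mono Q i.le_succ
  have h2 : ((Zc i).subgroupOf (Zc (i + 1))).index = 2 := by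
    have h := card_mul_index ((Zc i).subgroupOf (Zc (i + 1)))
    rw [Nat.card_congr (subgroupOfEquivOfLe hle).toEquiv, zc_card hQ hlarge h4 hi.le,
      zc_card hQ hlarge h4 hi, pow_succ] at h
    exact Nat.eq_of_mul_eq_mul_left (Nat.two_pow_pos i) h
  have := (mul_mem_iff_of_index_two h2 (a := (⟨z, hz⟩⁻¹ : ↥(Zc (i + 1))))
    (b := ⟨x, hx⟩)).2 (by simp [mem_subgroupOf, hz', hx'])
  simpa [mem_subgroupOf] using this

theorem exists_action (hQ : IsPGroup 2 Q) (hlarge : 16 < Nat.card Q) (h4 : Nat.card (Zc 4) = 16)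
    (hel : ∀ z ∈ Zc 3, z ^ 2 = 1) (hidx : (centralizer ((Zc 3 : Subgroup Q) : Set Q)).index = 8) :
    ∃ τ : Q →* Tri, τ.ker = centralizer ((Zc 3 : Subgroup Q) : Set Q) ∧ Function.Surjective τ ∧
      ∀ (t : Q), ((τ t).b = 1 ∨ ((τ t).a = 0 ∧ (τ t).c = 1)) →
        ∀ z ∈ Zc 3, t * z * t⁻¹ = z → z ∈ Zc 2 := by
  have hlt : ∀ i, i < 4 → Zc i < Zc (i + 1) := fun i hi => by
    refine lt_of_le_of_ne (Subgroup.upperCentralSeries_mono Q i.le_succ) fun e => ?_
    have h1 := zc_card hQ hlarge h4 hi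
    rw [← e, zc_card hQ hlarge h4 hi.le, pow_succ] at h1
    have := Nat.two_pow_pos i
    omega
  obtain ⟨z₁, hz₁, hz₁'⟩ := exists_not_mem (hlt 0 (by norm_num))
  obtain ⟨z₂, hz₂, hz₂'⟩ := exists_not_mem (hlt 1 (by norm_num))
  obtain ⟨z₃, hz₃, hz₃'⟩ := exists_not_mem (hlt 2 (by norm_num))
  simp only [Nat.reduceAdd, zero_add] at hz₁ hz₂ hz₂' hz₃ hz₃'
  have m12 : Zc 1 ≤ Zc 2 := Subgroup.upperCentralSeries_mono Q (by norm_num)
  have m23 : Zc 2 ≤ Zc 3 := Subgroup.upperCentralSeries_mono Q (by norm_num)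
  have h0 : Zc 0 = ⊥ := Subgroup.upperCentralSeries_zero Q
  have hz₁1 : z₁ ≠ 1 := fun h => hz₁' (h ▸ one_mem _)
  have hz₁c : ∀ t : Q, t * z₁ = z₁ * t := fun t => by
    have h := (Subgroup.mem_upperCentralSeries_succ_iff (n := 0)).1 hz₁ t
    rw [h0, mem_bot, commutatorElement_eq_one_iff_mul_comm] at h
    exact h.symm
  have sq1 := hel z₁ (m23 (m12 hz₁))
  have sq2 := hel z₂ (m23 hz₂)
  have hex1 : ∀ x ∈ Zc 1, ∃ i : ZMod 2, x = pw z₁ i := by
    intro x hx
    by_cases hx0 : x = 1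
    · exact ⟨0, by simp [pw, hx0]⟩
    · refine ⟨1, ?_⟩
      have := mem_step hQ hlarge h4 (i := 0) (by norm_num) hz₁ hz₁' hx (by rw [h0, mem_bot]; exact hx0)
      rw [h0, mem_bot, inv_mul_eq_one] at this
      simp [pw, ZMod.val_one, this]
  have hex2 : ∀ x ∈ Zc 2, ∃ j i : ZMod 2, x = pw z₂ j * pw z₁ i := by
    intro x hx
    by_cases hx1 : x ∈ Zc 1
    · obtain ⟨i, hi⟩ := hex1 x hx1
      exact ⟨0, i, by simp [pw] at hi ⊢; exact hi⟩
    · obtain ⟨i, hi⟩ := hex1 _ (mem_step hQ hlarge h4 (i := 1) (by norm_num) hz₂ hz₂' hx hx1)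
      exact ⟨1, i, by simp [pw, ZMod.val_one] at hi ⊢; rw [← hi]; group⟩
  have huniq : ∀ j i j' i' : ZMod 2, pw z₂ j * pw z₁ i = pw z₂ j' * pw z₁ i' → j = j' ∧ i = i' := by
    intro j i j' i' h
    have hcalc : ∀ k : ZMod 2, pw z₂ k ∈ Zc 1 → k = 0 := by
      intro k hk
      obtain rfl | rfl : k = 0 ∨ k = 1 := z2cases k
      · rfl
      · exact absurd (by simpa [pw, ZMod.val_one] using hk) hz₂'
    have e1 : pw z₂ (j + j') = pw z₁ (i + i') := by
      rw [pw_add sq2, pw_add sq1]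
      have hinv : ∀ k : ZMod 2, pw z₂ k * pw z₂ k = 1 ∧ pw z₁ k * pw z₁ k = 1 := fun k => by
        rw [← pw_add sq2, ← pw_add sq1, show k + k = 0 by revert k; decide]
        simp [pw]
      have h' : pw z₂ j' * (pw z₂ j * pw z₁ i) = pw z₁ i' := by rw [h, ← mul_assoc, (hinv j').1, one_mul]
      have hc2 : pw z₂ j' * pw z₂ j = pw z₂ j * pw z₂ j' := (Commute.refl z₂).pow_pow _ _
      rw [← hc2, ← h', (show pw z₁ i * (pw z₂ j' * (pw z₂ j * pw z₁ i)) = pw z₂ j' * pw z₂ j by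
        have hc : Commute (pw z₁ i) (pw z₂ j' * pw z₂ j) :=
          ((show Commute (pw z₁ i) z₂ from ((show Commute z₂ z₁ from hz₁c z₂).pow_right _).symm).pow_right _).mul_right
            ((show Commute (pw z₁ i) z₂ from ((show Commute z₂ z₁ from hz₁c z₂).pow_right _).symm).pow_right _)
        rw [← mul_assoc (pw z₂ j'), ← mul_assoc, hc.eq, mul_assoc, (hinv i).2, mul_one])]
    have hj := hcalc (j + j') (e1 ▸ pow_mem hz₁ _)
    have hi : i + i' = 0 := by
      obtain h' | h' : i + i' = 0 ∨ i + i' = 1 := by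
        generalize i + i' = k
        revert k; decide
      · exact h'
      · rw [hj, h'] at e1
        exact absurd (by simpa [pw, ZMod.val_one] using e1.symm) hz₁1
    constructor
    · exact z2add _ _ hj
    · exact z2add _ _ hi
  have hA : ∀ t : Q, ∃ a : ZMod 2, t * z₂ * t⁻¹ = z₂ * pw z₁ a := by
    intro t
    have hmem : z₂⁻¹ * (t * z₂ * t⁻¹) ∈ Zc 1 :=
      mem_step hQ hlarge h4 (i := 1) (by norm_num) hz₂ hz₂' ((inferInstance : (Zc 2).Normal).conj_mem z₂ hz₂ t)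
        (fun h => hz₂' (by
          have := (inferInstance : (Zc 1).Normal).conj_mem _ h t⁻¹
          simpa [mul_assoc] using this))
    obtain ⟨a, ha⟩ := hex1 _ hmem
    exact ⟨a, by rw [← ha]; group⟩
  have hB : ∀ t : Q, ∃ b c : ZMod 2, t * z₃ * t⁻¹ = z₃ * (pw z₂ b * pw z₁ c) := by
    intro t
    have hmem : z₃⁻¹ * (t * z₃ * t⁻¹) ∈ Zc 2 :=
      mem_step hQ hlarge h4 (i := 2) (by norm_num) hz₃ hz₃' ((inferInstance : (Zc 3).Normal).conj_mem z₃ hz₃ t)
        (fun h => hz₃' (by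
          have := (inferInstance : (Zc 2).Normal).conj_mem _ h t⁻¹
          simpa [mul_assoc] using this))
    obtain ⟨b, c, hbc⟩ := hex2 _ hmem
    exact ⟨b, c, by rw [← hbc]; group⟩
  choose fa hfa using hA
  choose fb fc hfbc using hB
  have hconj1 : ∀ (t : Q) (k : ZMod 2), t * pw z₁ k * t⁻¹ = pw z₁ k := fun t k => by
    have : Commute t (pw z₁ k) := (show Commute t z₁ from hz₁c t).pow_right _
    rw [this.eq, mul_inv_cancel_right]
  have hmul : ∀ s t : Q, fa (s * t) = fa s + fa t ∧ fb (s * t) = fb s + fb t ∧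
      fc (s * t) = fc s + fc t + fa s * fb t := by
    intro s t
    have e2 : z₂ * pw z₁ (fa (s * t)) = z₂ * pw z₁ (fa s + fa t) := by
      rw [← hfa, show s * t * z₂ * (s * t)⁻¹ = s * (t * z₂ * t⁻¹) * s⁻¹ by group, hfa t,
        show s * (z₂ * pw z₁ (fa t)) * s⁻¹ = (s * z₂ * s⁻¹) * (s * pw z₁ (fa t) * s⁻¹) by group,
        hfa s, hconj1, pw_add sq1]
      group
    have e3 : z₃ * (pw z₂ (fb (s * t)) * pw z₁ (fc (s * t)))
        = z₃ * (pw z₂ (fb s + fb t) * pw z₁ (fc s + fc t + fa s * fb t)) := by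
      have e4 : s * pw z₂ (fb t) * s⁻¹ = pw z₂ (fb t) * pw z₁ (fa s * fb t) := by
        obtain h | h : fb t = 0 ∨ fb t = 1 := by generalize fb t = k; revert k; decide
        · simp [h, pw]
        · simp [h, pw, ZMod.val_one, hfa s]
      have hc12 : ∀ i j : ZMod 2, Commute (pw z₁ i) (pw z₂ j) := fun i j =>
        ((show Commute z₁ z₂ from (hz₁c z₂).symm).pow_pow _ _)
      rw [← hfbc, show s * t * z₃ * (s * t)⁻¹ = s * (t * z₃ * t⁻¹) * s⁻¹ by group, hfbc t,
        show s * (z₃ * (pw z₂ (fb t) * pw z₁ (fc t))) * s⁻¹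
          = (s * z₃ * s⁻¹) * ((s * pw z₂ (fb t) * s⁻¹) * (s * pw z₁ (fc t) * s⁻¹)) by group,
        hfbc s, e4, hconj1, pw_add sq2, pw_add sq1, pw_add sq1]
      simp only [mul_assoc]
      congr 1
      congr 1
      rw [← mul_assoc (pw z₁ (fc s)) (pw z₂ (fb t)), (hc12 _ _).eq, mul_assoc]
      congr 1
      congr 1
      exact ((Commute.refl z₁).pow_pow _ _).eq
    obtain ⟨-, ha⟩ := huniq 0 _ 0 _ (show pw z₂ 0 * pw z₁ (fa (s * t)) = pw z₂ 0 * pw z₁ (fa s + fa t) by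
      rw [mul_left_cancel e2])
    obtain ⟨hb, hc⟩ := huniq _ _ _ _ (mul_left_cancel e3)
    exact ⟨ha, hb, hc⟩
  let τ : Q →* Tri := MonoidHom.mk' (fun t => ⟨fa t, fb t, fc t⟩) fun s t => by
    obtain ⟨h1, h2, h3⟩ := hmul s t
    exact Tri.ext h1 h2 h3
  have hker : τ.ker = centralizer ((Zc 3 : Subgroup Q) : Set Q) := by
    ext t
    have hgen : Zc 3 ≤ closure ({z₁, z₂, z₃} : Set Q) := by
      have m1 : z₁ ∈ closure ({z₁, z₂, z₃} : Set Q) := Subgroup.subset_closure (by simp)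
      have m2 : z₂ ∈ closure ({z₁, z₂, z₃} : Set Q) := Subgroup.subset_closure (by simp)
      have m3 : z₃ ∈ closure ({z₁, z₂, z₃} : Set Q) := Subgroup.subset_closure (by simp)
      intro x hx
      by_cases h : x ∈ Zc 2
      · obtain ⟨j, i, rfl⟩ := hex2 x h
        exact mul_mem (pow_mem m2 _) (pow_mem m1 _)
      · obtain ⟨j, i, he⟩ := hex2 _ (mem_step hQ hlarge h4 (i := 2) (by norm_num) hz₃ hz₃' hx h)
        rw [show x = z₃ * (z₃⁻¹ * x) by group, he]
        exact mul_mem m3 (mul_mem (pow_mem m2 _) (pow_mem m1 _))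
    constructor
    · intro ht
      have h : (⟨fa t, fb t, fc t⟩ : Tri) = ⟨0, 0, 0⟩ := ht
      simp only [Tri.mk.injEq] at h
      obtain ⟨ha, hb, hc⟩ := h
      have e2 : t * z₂ * t⁻¹ = z₂ := by simpa [ha, pw] using hfa t
      have e3 : t * z₃ * t⁻¹ = z₃ := by simpa [hb, hc, pw] using hfbc t
      have hle : closure ({z₁, z₂, z₃} : Set Q) ≤ centralizer ({t} : Set Q) := by
        rw [closure_le]
        rintro y (rfl | rfl | rfl)
        · exact mem_centralizer_singleton_iff.2 (hz₁c t).symm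
        · exact mem_centralizer_singleton_iff.2 (mul_inv_eq_iff_eq_mul.1 e2).symm
        · exact mem_centralizer_singleton_iff.2 (mul_inv_eq_iff_eq_mul.1 e3).symm
      exact mem_centralizer_iff.2 fun y hy => mem_centralizer_singleton_iff.1 (hle (hgen hy))
    · intro ht
      have e : ∀ y ∈ Zc 3, t * y * t⁻¹ = y := fun y hy => by
        rw [← mem_centralizer_iff.1 ht y hy, mul_inv_cancel_right]
      have e2 : pw z₂ 0 * pw z₁ (fa t) = pw z₂ 0 * pw z₁ 0 := by
        have := hfa t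
        rw [e z₂ (m23 hz₂), left_eq_mul] at this
        simp [pw] at this ⊢
        exact this
      have e3 : pw z₂ (fb t) * pw z₁ (fc t) = pw z₂ 0 * pw z₁ 0 := by
        have := hfbc t
        rw [e z₃ hz₃, left_eq_mul] at this
        rw [this]; simp [pw]
      obtain ⟨-, ha⟩ := huniq _ _ _ _ e2
      obtain ⟨hb, hc⟩ := huniq _ _ _ _ e3
      exact Tri.ext ha hb hc
  refine ⟨τ, hker, ?_, ?_⟩
  · rw [← MonoidHom.range_eq_top]
    refine eq_top_of_card_eq _ ?_
    rw [← index_ker, hker, hidx, Tri.card]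
  · intro t ht z hz hfix
    by_contra hz2
    obtain ⟨j, i, he⟩ := hex2 _ (mem_step hQ hlarge h4 (i := 2) (by norm_num) hz₃ hz₃' hz hz2)
    obtain rfl : z = z₃ * (pw z₂ j * pw z₁ i) := by rw [← he]; group
    have e4 : t * pw z₂ j * t⁻¹ = pw z₂ j * pw z₁ (fa t * j) := by
      obtain rfl | rfl : j = 0 ∨ j = 1 := z2cases j
      · simp [pw]
      · simp [pw, ZMod.val_one, hfa t]
    rw [show t * (z₃ * (pw z₂ j * pw z₁ i)) * t⁻¹
        = (t * z₃ * t⁻¹) * ((t * pw z₂ j * t⁻¹) * (t * pw z₁ i * t⁻¹)) by group,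
      hfbc t, e4, hconj1, mul_assoc z₃, mul_right_inj] at hfix
    have hc12 : ∀ k l : ZMod 2, Commute (pw z₁ k) (pw z₂ l) := fun k l =>
      ((show Commute z₁ z₂ from (hz₁c z₂).symm).pow_pow _ _)
    rw [show pw z₂ (fb t) * pw z₁ (fc t) * (pw z₂ j * pw z₁ (fa t * j) * pw z₁ i)
        = pw z₂ (fb t) * (pw z₁ (fc t) * pw z₂ j) * (pw z₁ (fa t * j) * pw z₁ i) by group,
      (hc12 _ _).eq] at hfix
    rw [show pw z₂ (fb t) * (pw z₂ j * pw z₁ (fc t)) * (pw z₁ (fa t * j) * pw z₁ i)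
        = (pw z₂ (fb t) * pw z₂ j) * ((pw z₁ (fc t) * pw z₁ (fa t * j)) * pw z₁ i) by group,
      ← pw_add sq2, ← pw_add sq1, ← pw_add sq1] at hfix
    obtain ⟨hb, hc⟩ := huniq _ _ _ _ hfix
    change fb t = 1 ∨ (fa t = 0 ∧ fc t = 1) at ht
    rcases ht with h | ⟨h, h'⟩
    · rw [h] at hb; exact z2bad j j hb rfl
    · rw [h, h', zero_mul, add_zero] at hc; exact z2bad i i hc rfl

end Cfsg.Agent.Lib.RudvalisType

namespace Cfsg.Agent.Lib.RudvalisType

variable {Q : Type*} [Group Q] [Finite Q]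

local notation "Zc" => Subgroup.upperCentralSeries Q

theorem center_le (hQ : IsPGroup 2 Q) (hlarge : 2 ^ 14 ≤ Nat.card Q)
    (h4 : Nat.card (Zc 4) = 16) (W : Subgroup Q) (hW : W = centralizer ((Zc 3 : Subgroup Q) : Set Q))
    (hc : Nat.card (phiOf W) ≤ 8) (hd : ∀ U : Subgroup ↥W, U.index ≤ 16 → frattini ↥W ≤ U)
    (τ : Q →* Tri) (hker : τ.ker = W) (hsurj : Function.Surjective τ)
    (hfp : ∀ (t : Q), ((τ t).b = 1 ∨ ((τ t).a = 0 ∧ (τ t).c = 1)) →
      ∀ z ∈ Zc 3, t * z * t⁻¹ = z → z ∈ Zc 2) :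
    center ↥W ≤ frattini ↥W := by
  by_contra hnot
  obtain ⟨hWn, -, hΦn, -, -⟩ := setup hQ hlarge h4 W hW hc
  obtain ⟨hcomm, hsq⟩ := image_elementary hQ W
  obtain ⟨-, hWidx, hΦcard, hΦ3, hrel⟩ := counts hQ hlarge h4 W hW hc
  obtain ⟨-, hΦel, hΦcen, -⟩ := derived_eq hQ hlarge h4 W hW hc hd
  have hlarge' : 16 < Nat.card Q := lt_of_lt_of_le (by norm_num) hlarge
  have hbound := fixedMod_le_two_pow hQ hcomm hsq (fixedMod_top hQ hlarge' h4 W hc)
  have htop := fixedMod_top hQ hlarge' h4 W hc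
  set π := QuotientGroup.mk' (phiOf W) with hπ
  set V := W.map π with hV
  haveI : V.Normal := hWn.map π (QuotientGroup.mk'_surjective _)
  have hVc : ∀ {x y}, x ∈ V → y ∈ V → x * y = y * x := fun hx hy => hcomm _ hx _ hy
  have hVs : ∀ {x}, x ∈ V → x * x = 1 := fun hx => by rw [← pow_two]; exact hsq _ hx
  -- lifts
  obtain ⟨tz, htz⟩ := hsurj ⟨0, 0, 1⟩
  obtain ⟨tb, htb⟩ := hsurj ⟨0, 1, 0⟩
  obtain ⟨ta, hta⟩ := hsurj ⟨1, 0, 0⟩
  have hτ : ∀ {s t : Q}, τ s = τ t → ∀ y ∈ V, π s * y * (π s)⁻¹ = π t * y * (π t)⁻¹ := by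
    intro s t h y hy
    have hm : t⁻¹ * s ∈ W := by rw [← hker, MonoidHom.mem_ker]; simp [h]
    have e := hVc (mem_map_of_mem π hm) hy
    calc π s * y * (π s)⁻¹ = π t * (π (t⁻¹ * s) * y) * (π (t⁻¹ * s))⁻¹ * (π t)⁻¹ := by
          simp only [map_mul, map_inv]; group
      _ = π t * y * (π t)⁻¹ := by rw [e]; group
  let act : Q → Q ⧸ phiOf W → Q ⧸ phiOf W := fun s y => π s * y * (π s)⁻¹
  have hact : ∀ s {y}, y ∈ V → act s y ∈ V := fun s _ hy => (inferInstance : V.Normal).conj_mem _ hy _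
  have hact2 : ∀ s t y, act s (act t y) = act (s * t) y := fun s t y => by
    simp only [act, map_mul]; group
  have hactτ : ∀ {s t}, τ s = τ t → ∀ {y}, y ∈ V → act s y = act t y := fun h _ hy => hτ h _ hy
  have hactm : ∀ s x y, act s (x * y) = act s x * act s y := fun s x y => by simp only [act]; group
  have hact1 : ∀ {y}, y ∈ V → act 1 y = y := fun _ => by simp [act]
  let δ : Q → Q ⧸ phiOf W → Q ⧸ phiOf W := fun s y => act s y * y
  have hδ : ∀ s {y}, y ∈ V → δ s y ∈ V := fun s _ hy => mul_mem (hact s hy) hy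
  have hδm : ∀ s {x y}, x ∈ V → y ∈ V → δ s (x * y) = δ s x * δ s y := by
    intro s x y hx hy
    simp only [δ, hactm]
    rw [mul_assoc, ← mul_assoc (act s y) x y, hVc (hact s hy) hx]
    group
  let dh : Q → (↥V →* ↥V) := fun s => MonoidHom.mk' (fun y => ⟨δ s y, hδ s y.2⟩)
    fun x y => Subtype.ext (hδm s x.2 y.2)
  have hinv2 : ∀ s, τ s * τ s = 1 → ∀ {y}, y ∈ V → act s (δ s y) = δ s y := by
    intro s hs y hy
    simp only [δ, hactm, hact2]
    rw [hactτ (show τ (s * s) = τ 1 by rw [map_mul, hs, map_one]) hy, hact1 hy, hVc hy (hact s hy)]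
  have hswap : ∀ s t, τ s * τ t = τ t * τ s → ∀ {y}, y ∈ V → δ s (δ t y) = δ t (δ s y) := by
    intro s t hst y hy
    simp only [δ, hactm, hact2]
    rw [hactτ (show τ (s * t) = τ (t * s) by simp [hst]) hy]
    generalize act (t * s) y = X
    rw [mul_assoc X, ← mul_assoc (act s y), hVc (hact s hy) (hact t hy), mul_assoc (act t y), ← mul_assoc X]
  -- a fixed vector lies in `fixedMod`
  have hfix : ∀ (L : List Q) {y}, y ∈ V → (∀ s ∈ L, act s y = y) →
      y ∈ fixedMod W (phiOf W) (W ⊔ closure {s | s ∈ L}) := by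
    intro L y hy hL
    refine ⟨hy, mem_centralizer_iff.2 ?_⟩
    have hle : (W ⊔ closure {s | s ∈ L}).map π ≤ centralizer ({y} : Set (Q ⧸ phiOf W)) := by
      rw [map_le_iff_le_comap, sup_le_iff, closure_le]
      refine ⟨fun w hw => ?_, fun s hs => ?_⟩
      · exact mem_centralizer_singleton_iff.2 (hVc (mem_map_of_mem π hw) hy)
      · exact mem_centralizer_singleton_iff.2 (mul_inv_eq_iff_eq_mul.1 (hL s hs))
    exact fun z hz => mem_centralizer_singleton_iff.1 (hle hz)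
  have hidx : ∀ (L : List Q) (k : ℕ), k ≤ Nat.card ↥((W ⊔ closure {s | s ∈ L}).map τ) →
      (W ⊔ closure {s | s ∈ L}).index * k ≤ 8 := by
    intro L k hk
    set J := W ⊔ closure {s | s ∈ L}
    have h1 := Cfsg.Agent.Lib.Coprime.card_map_mul_card_inf_ker τ J
    rw [hker, inf_eq_right.2 (le_sup_left : W ≤ J)] at h1
    have h2 := J.card_mul_index
    have h3 := W.card_mul_index
    rw [hWidx] at h3
    have h4' : 0 < Nat.card W := Nat.card_pos
    have : Nat.card W * (J.index * Nat.card (J.map τ)) = Nat.card W * 8 := by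
      rw [h3, ← h2, ← h1]; ring
    have := Nat.eq_of_mul_eq_mul_left h4' this
    exact (Nat.mul_le_mul_left _ hk).trans this.le
  have hmemτ : ∀ (L : List Q), ∀ s ∈ L, τ s ∈ (W ⊔ closure {s | s ∈ L}).map τ := fun L s hs =>
    mem_map_of_mem τ (mem_sup_right (Subgroup.subset_closure hs))
  have hV256 : Nat.card ↥V = 2 ^ 8 := by
    have hle : phiOf W ≤ W := map_subtype_le _
    have h := Cfsg.Agent.Lib.Coprime.card_map_mul_card_inf_ker π W
    rw [hπ, QuotientGroup.ker_mk', inf_eq_right.2 hle] at h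
    have h' := card_mul_index ((phiOf W).subgroupOf W)
    rw [Nat.card_congr (subgroupOfEquivOfLe hle).toEquiv] at h'
    rw [← h', mul_comm] at h
    rw [hV, hπ, ← hrel]
    exact Nat.eq_of_mul_eq_mul_left Nat.card_pos h
  have hbd : ∀ (L : List Q) (k e : ℕ), k ≤ Nat.card ↥((W ⊔ closure {s | s ∈ L}).map τ) → 0 < k →
      8 ≤ e * k → Nat.card (fixedMod W (phiOf W) (W ⊔ closure {s | s ∈ L})) ≤ 2 ^ e := by
    intro L k e hk hk0 he
    refine (hbound _ _ rfl).trans (Nat.pow_le_pow_right (by norm_num) ?_)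
    exact Nat.le_of_mul_le_mul_right ((hidx L k hk).trans he) hk0
  have hcard2 : ∀ (L : List Q) (x : Tri), x ≠ 1 → x ∈ (W ⊔ closure {s | s ∈ L}).map τ →
      2 ≤ Nat.card ↥((W ⊔ closure {s | s ∈ L}).map τ) := fun L x hx hmem =>
    (one_lt_card_iff_ne_bot _).2 fun h => hx (mem_bot.1 (h ▸ hmem))
  have hcard3 : ∀ (L : List Q) (x y : Tri), x ≠ 1 → y ≠ 1 → x ≠ y →
      x ∈ (W ⊔ closure {s | s ∈ L}).map τ → y ∈ (W ⊔ closure {s | s ∈ L}).map τ →
      4 ≤ Nat.card ↥((W ⊔ closure {s | s ∈ L}).map τ) := by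
    intro L x y hx hy hxy hx' hy'
    have h2 := hcard2 L x hx hx'
    obtain ⟨m, hm⟩ := IsPGroup.iff_card.1 ((hQ.to_subgroup (W ⊔ closure {s | s ∈ L})).map τ)
    rw [hm] at h2 ⊢
    have hm2 : 2 ≤ m := by
      by_contra h
      obtain rfl : m = 1 := by
        rcases m with _ | _ | m
        · norm_num at h2
        · rfl
        · omega
      let S := (W ⊔ closure {s | s ∈ L}).map τ
      haveI : Fintype ↥S := Fintype.ofFinite _
      have h3 : Nat.card ({1, x, y} : Set Tri) ≤ Nat.card ↥S :=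
        Nat.card_le_card_of_injective (fun z : ({1, x, y} : Set Tri) => (⟨z.1, by
          rcases z.2 with h | h | h
          · rw [h]; exact one_mem _
          · rw [h]; exact hx'
          · rw [Set.mem_singleton_iff.1 h]; exact hy'⟩ : ↥S))
          fun z z' h => Subtype.ext (congrArg (fun w : ↥S => (w : Tri)) h)
      rw [Nat.card_coe_set_eq, Set.ncard_insert_of_notMem, Set.ncard_pair hxy] at h3
      · change _ ≤ Nat.card ↥((W ⊔ closure {s | s ∈ L}).map τ) at h3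
        rw [hm] at h3; norm_num at h3
      · rintro (h' | h')
        · exact hx h'.symm
        · exact hy (Set.mem_singleton_iff.1 h').symm
    calc (4 : ℕ) = 2 ^ 2 := rfl
      _ ≤ 2 ^ m := Nat.pow_le_pow_right (by norm_num) hm2
  -- the three successive images
  have hzz : τ tz * τ tz = 1 := by rw [htz]; decide
  have hbb : τ tb * τ tb = 1 := by rw [htb]; decide
  have haa : τ ta * τ ta = 1 := by rw [hta]; decide
  have hzb : τ tz * τ tb = τ tb * τ tz := by rw [htz, htb]; decide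
  have hza : τ tz * τ ta = τ ta * τ tz := by rw [htz, hta]; decide
  let R₁ : Subgroup ↥V := (dh tz).range
  let R₂ : Subgroup ↥V := R₁.map (dh tb)
  have hcardV : ∀ (X : Subgroup ↥V) (s : Q) (n : ℕ) (L : List Q),
      (∀ y ∈ X, δ s (y : Q ⧸ phiOf W) = 1 → ∀ t ∈ L, act t (y : Q ⧸ phiOf W) = y) →
      Nat.card (fixedMod W (phiOf W) (W ⊔ closure {s | s ∈ L})) ≤ n →
      Nat.card X ≤ Nat.card ↥(X.map (dh s)) * n := by
    intro X s n L hX hn
    rw [← Cfsg.Agent.Lib.Coprime.card_map_mul_card_inf_ker (dh s) X]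
    refine Nat.mul_le_mul_left _ (le_trans ?_ hn)
    rw [← card_map_of_injective (K := X ⊓ (dh s).ker) V.subtype_injective]
    refine card_le_of_le ?_
    rintro _ ⟨y, hy, rfl⟩
    exact hfix L y.2 (hX y hy.1 (congrArg Subtype.val (show dh s y = 1 from hy.2)))
  have hfixδ : ∀ {s y}, y ∈ V → δ s y = 1 → act s y = y := by
    intro s y hy h
    have : act s y = y⁻¹ := eq_inv_of_mul_eq_one_left h
    rw [this]; exact inv_eq_of_mul_eq_one_right (hVs hy)
  have hR1 : 2 ^ 4 ≤ Nat.card R₁ := by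
    have h := hcardV ⊤ tz (2 ^ 4) [tz] (fun y _ hy t ht => by
        rw [List.mem_singleton] at ht; subst ht; exact hfixδ y.2 hy)
      (hbd _ 2 4 (hcard2 _ _ (by rw [htz]; decide) (hmemτ [tz] tz (by simp))) (by norm_num) (by norm_num))
    rw [card_top, ← MonoidHom.range_eq_map, hV256] at h
    change 2 ^ 8 ≤ Nat.card R₁ * 2 ^ 4 at h
    omega
  have hR1fix : ∀ y ∈ R₁, act tz (y : Q ⧸ phiOf W) = y := by
    rintro _ ⟨y, rfl⟩
    exact hinv2 tz hzz y.2
  have hR2 : 2 ^ 2 ≤ Nat.card R₂ := by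
    have h := hcardV R₁ tb (2 ^ 2) [tz, tb] (fun y hy hy' t ht => by
        rcases List.mem_cons.1 ht with rfl | ht
        · exact hR1fix y hy
        · rw [List.mem_singleton] at ht; subst ht; exact hfixδ y.2 hy')
      (hbd _ 4 2 (hcard3 _ _ _ (by rw [htz]; decide) (by rw [htb]; decide) (by rw [htz, htb]; decide)
        (hmemτ [tz, tb] tz (by simp)) (hmemτ [tz, tb] tb (by simp))) (by norm_num) (by norm_num))
    change Nat.card R₁ ≤ Nat.card R₂ * 2 ^ 2 at h
    omega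
  have hR2fix : ∀ y ∈ R₂, act tz (y : Q ⧸ phiOf W) = y ∧ act tb (y : Q ⧸ phiOf W) = y := by
    rintro _ ⟨y, hy, rfl⟩
    refine ⟨?_, hinv2 tb hbb y.2⟩
    show act tz (act tb y * (y : Q ⧸ phiOf W)) = act tb y * y
    rw [hactm, hR1fix y hy, hact2, hactτ (show τ (tz * tb) = τ (tb * tz) by simp [hzb]) y.2, ← hact2, hR1fix y hy]
  -- the whole group is generated
  have htopgen : W ⊔ closure {s | s ∈ [tz, tb, ta]} = ⊤ := by
    have h1 : (W ⊔ closure {s | s ∈ [tz, tb, ta]}).map τ = ⊤ := by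
      refine (eq_top_iff' _).2 fun x => ?_
      have hz := hmemτ [tz, tb, ta] tz (by simp)
      have hb := hmemτ [tz, tb, ta] tb (by simp)
      have ha := hmemτ [tz, tb, ta] ta (by simp)
      rw [htz] at hz; rw [htb] at hb; rw [hta] at ha
      have hx : x = (⟨0, 1, 0⟩ : Tri) ^ x.b.val * (⟨1, 0, 0⟩ : Tri) ^ x.a.val * (⟨0, 0, 1⟩ : Tri) ^ x.c.val := by
        revert x; decide
      rw [hx]
      exact mul_mem (mul_mem (pow_mem hb _) (pow_mem ha _)) (pow_mem hz _)
    rw [← comap_map_eq_self (f := τ) (H := W ⊔ closure {s | s ∈ [tz, tb, ta]})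
      (by rw [hker]; exact le_sup_left), h1, comap_top]
  obtain ⟨v, hl⟩ : ∃ v : ↥V, δ ta (δ tb (δ tz (v : Q ⧸ phiOf W))) ≠ 1 := by
    by_contra h
    push Not at h
    have hle : R₂.map V.subtype ≤ fixedMod W (phiOf W) ⊤ := by
      rintro _ ⟨y, hy, rfl⟩
      rw [← htopgen]
      refine hfix _ y.2 fun t ht => ?_
      obtain ⟨u, hu, hue⟩ := hy
      obtain ⟨v, rfl⟩ := hu
      simp only [List.mem_cons, List.not_mem_nil, or_false] at ht
      rcases ht with rfl | rfl | rfl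
      · exact (hR2fix y ⟨_, ⟨v, rfl⟩, hue⟩).1
      · exact (hR2fix y ⟨_, ⟨v, rfl⟩, hue⟩).2
      · rw [← hue]; exact hfixδ ((dh tb) ((dh tz) v)).2 (h v)
    have h' := card_le_of_le hle
    rw [card_map_of_injective V.subtype_injective] at h'
    omega
  set l := δ tb (δ tz (v : Q ⧸ phiOf W)) with hldef
  set σ := δ ta l with hσdef
  have hlV : l ∈ V := hδ _ (hδ _ v.2)
  have hσtop : σ ∈ fixedMod W (phiOf W) ⊤ := by
    rw [← htopgen]
    refine hfix _ (hδ _ hlV) fun t ht => ?_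
    have hl2 : (⟨l, hlV⟩ : ↥V) ∈ R₂ := ⟨dh tz v, ⟨v, rfl⟩, rfl⟩
    have hfz : act tz σ = σ := by
      rw [hσdef]
      show act tz (act ta l * l) = act ta l * l
      rw [hactm, (hR2fix _ hl2).1, hact2, hactτ (show τ (tz * ta) = τ (ta * tz) by simp [hza]) hlV, ← hact2,
        (hR2fix _ hl2).1]
    simp only [List.mem_cons, List.not_mem_nil, or_false] at ht
    rcases ht with rfl | rfl | rfl
    · exact hfz
    · -- `b a = a b z` modulo `W`
      show act t (act ta l * l) = act ta l * l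
      rw [hactm, (hR2fix _ hl2).2, hact2,
        hactτ (show τ (t * ta) = τ (ta * (t * tz)) by simp [htz, htb, hta]; decide) hlV, ← hact2, ← hact2,
        (hR2fix _ hl2).1, (hR2fix _ hl2).2]
    · exact hinv2 t haa hlV
  -- the central element
  obtain ⟨x₀, hx₀c, hx₀⟩ := SetLike.not_le_iff_exists.1 hnot
  have hσc : ∃ c : ↥W, c ∈ center ↥W ∧ π (c : Q) = σ := by
    let C := ((center ↥W).map W.subtype).map π
    haveI hCn : C.Normal :=
      (ConjAct.normal_of_characteristic_of_normal (H := W) (K := center ↥W)).map π (QuotientGroup.mk'_surjective _)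
    have hCne : C ≠ ⊥ := fun h => hx₀ (by
      have h1 : π (x₀ : Q) ∈ C := mem_map_of_mem π (mem_map_of_mem W.subtype hx₀c)
      rw [h, mem_bot] at h1
      obtain ⟨y, hy, hyx⟩ := (QuotientGroup.eq_one_iff (N := phiOf W) _).1 h1
      rwa [show x₀ = y from Subtype.ext hyx.symm])
    obtain ⟨y, hy, hy1⟩ : ∃ y ∈ C ⊓ center (Q ⧸ phiOf W), y ≠ 1 := by
      by_contra h
      push Not at h
      exact hCne (eq_bot_of_inf_center_eq_bot' (hQ.to_quotient _) C ((eq_bot_iff_forall _).2 h))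
    have hCV : C ≤ V := map_mono (map_subtype_le _)
    have hytop : y ∈ fixedMod W (phiOf W) ⊤ :=
      ⟨hCV hy.1, mem_centralizer_iff.2 fun z _ => mem_center_iff.1 hy.2 z⟩
    have hyσ : y = σ := by
      by_contra hne
      let S := fixedMod W (phiOf W) ⊤
      have h3 : Nat.card ({1, y, σ} : Set (Q ⧸ phiOf W)) ≤ Nat.card ↥S :=
        Nat.card_le_card_of_injective (fun z : ({1, y, σ} : Set (Q ⧸ phiOf W)) => (⟨z.1, by
          rcases z.2 with h | h | h
          · rw [h]; exact one_mem _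
          · rw [h]; exact hytop
          · rw [Set.mem_singleton_iff.1 h]; exact hσtop⟩ : ↥S))
          fun z z' h => Subtype.ext (congrArg (fun w : ↥S => (w : Q ⧸ phiOf W)) h)
      rw [Nat.card_coe_set_eq, Set.ncard_insert_of_notMem, Set.ncard_pair hne] at h3
      · change _ ≤ Nat.card ↥(fixedMod W (phiOf W) ⊤) at h3; omega
      · rintro (h' | h')
        · exact hy1 h'.symm
        · exact hl (Set.mem_singleton_iff.1 h').symm
    obtain ⟨_, ⟨c, hc', rfl⟩, hcy⟩ := hy.1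
    exact ⟨c, hc', hcy.trans hyσ⟩
  obtain ⟨c, hcc, hcσ⟩ := hσc
  have hcσ' : ∀ u ∈ W, ⁅u, (c : Q)⁆ = 1 := fun u hu =>
    commutatorElement_eq_one_iff_mul_comm.2 (congrArg Subtype.val (mem_center_iff.1 hcc ⟨u, hu⟩))
  -- the bilinear commutator map into `Z₃/Z₂`
  set ρ := QuotientGroup.mk' (Zc 2) with hρ
  have hcm : ∀ u ∈ W, ∀ w ∈ W, ⁅u, w⁆ ∈ phiOf W := fun u hu w hw =>
    mem_map_of_mem W.subtype (Cfsg.Agent.Lib.PGroupFrattini.commutator_le_frattini (hQ.to_subgroup W)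
      (commutator_mem_commutator (mem_top (⟨u, hu⟩ : ↥W)) (mem_top (⟨w, hw⟩ : ↥W))))
  have hsqm : ∀ u ∈ W, u * u ∈ phiOf W := fun u hu => by
    rw [← pow_two]
    exact mem_map_of_mem W.subtype
      (Cfsg.Agent.Lib.PGroupFrattini.pow_mem_frattini (hQ.to_subgroup W) (⟨u, hu⟩ : ↥W))
  have hcenΦ : ∀ f ∈ phiOf W, ∀ u ∈ W, u * f = f * u := by
    rintro _ ⟨f, hf, rfl⟩ u hu
    exact congrArg Subtype.val (mem_center_iff.1 (hΦcen hf) ⟨u, hu⟩)
  have hρc : ∀ f ∈ phiOf W, ρ f ∈ center (Q ⧸ Zc 2) := fun f hf => by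
    refine mem_center_iff.2 fun y => ?_
    obtain ⟨s, rfl⟩ := QuotientGroup.mk'_surjective (Zc 2) y
    symm
    rw [← commutatorElement_eq_one_iff_mul_comm, ← map_commutatorElement]
    exact (QuotientGroup.eq_one_iff (N := Zc 2) _).2
      ((Subgroup.mem_upperCentralSeries_succ_iff (n := 2)).1 (hΦ3 ▸ hf) s)
  have hρ2 : ∀ f ∈ phiOf W, ρ f * ρ f = 1 := by
    rintro _ ⟨f, hf, rfl⟩
    rw [← map_mul, ← pow_two, show ((W.subtype f) ^ 2 : Q) = W.subtype (f ^ 2) from (map_pow W.subtype f 2).symm,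
      hΦel f hf, map_one, map_one]
  let br : Q → Q → Q ⧸ Zc 2 := fun u w => ρ ⁅u, w⁆
  have hbrl : ∀ a ∈ W, ∀ b ∈ W, ∀ d ∈ W, br (a * b) d = br a d * br b d := by
    intro a ha b hb d hd'
    have e : ⁅a * b, d⁆ = ⁅a, d⁆ * ⁅b, d⁆ := by
      rw [show ⁅a * b, d⁆ = a * ⁅b, d⁆ * a⁻¹ * ⁅a, d⁆ by simp only [commutatorElement_def]; group,
        hcenΦ _ (hcm b hb d hd') a ha, mul_inv_cancel_right, hcenΦ _ (hcm a ha d hd') _]
      exact map_subtype_le _ (hcm b hb d hd')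
    show ρ ⁅a * b, d⁆ = _
    rw [e, map_mul]
  have hbrs : ∀ a ∈ W, ∀ b ∈ W, br b a = br a b := by
    intro a ha b hb
    show ρ ⁅b, a⁆ = ρ ⁅a, b⁆
    rw [← commutatorElement_inv, map_inv]
    exact inv_eq_of_mul_eq_one_right (hρ2 _ (hcm a ha b hb))
  have hbrr : ∀ a ∈ W, ∀ b ∈ W, ∀ d ∈ W, br d (a * b) = br d a * br d b := by
    intro a ha b hb d hd'
    rw [hbrs _ (mul_mem ha hb) _ hd', hbrl a ha b hb d hd', hbrs a ha d hd', hbrs b hb d hd']
  have hbrφ : ∀ f ∈ phiOf W, ∀ b ∈ W, br f b = 1 := by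
    intro f hf b hb
    show ρ ⁅f, b⁆ = 1
    rw [commutatorElement_eq_one_iff_mul_comm.2 (hcenΦ f hf b hb).symm, map_one]
  have hbrπ : ∀ a ∈ W, ∀ a' ∈ W, π a = π a' → ∀ b ∈ W, br a b = br a' b := by
    intro a ha a' ha' h b hb
    have hf : a'⁻¹ * a ∈ phiOf W := QuotientGroup.eq.1 h.symm
    rw [show a = a' * (a'⁻¹ * a) by group, hbrl a' ha' _ (mul_mem (inv_mem ha') ha) b hb, hbrφ _ hf b hb,
      mul_one]
  have hbrconj : ∀ s, ∀ a ∈ W, ∀ b ∈ W, br (s * a * s⁻¹) (s * b * s⁻¹) = br a b := by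
    intro s a ha b hb
    show ρ ⁅s * a * s⁻¹, s * b * s⁻¹⁆ = ρ ⁅a, b⁆
    rw [show ⁅s * a * s⁻¹, s * b * s⁻¹⁆ = s * ⁅a, b⁆ * s⁻¹ by simp only [commutatorElement_def]; group,
      map_mul, map_mul, map_inv, mem_center_iff.1 (hρc _ (hcm a ha b hb)), mul_inv_cancel_right]
  have hW' : ∀ s, ∀ a ∈ W, s * a * s⁻¹ ∈ W := fun s a ha => hWn.conj_mem a ha s
  -- an involution moving `Z₃` modulo `Z₂` gives an isotropic pair
  have hiso : ∀ s, τ s * τ s = 1 → ((τ s).b = 1 ∨ ((τ s).a = 0 ∧ (τ s).c = 1)) →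
      ∀ a ∈ W, br (s * a * s⁻¹) a = 1 := by
    intro s hs hmove a ha
    refine (QuotientGroup.eq_one_iff (N := Zc 2) _).2 (hfp s hmove _ (hΦ3 ▸ hcm _ (hW' s a ha) a ha) ?_)
    set u := s * a * s⁻¹ with hu
    have hss : s * s ∈ W := by rw [← hker, MonoidHom.mem_ker, map_mul, hs]
    have hπeq : π (s * u * s⁻¹) = π a := by
      have e1 : π (s * u * s⁻¹) = act (s * s) (π a) := by simp only [act, hu, map_mul, map_inv]; group
      rw [e1, hactτ (show τ (s * s) = τ 1 by rw [map_mul, hs, map_one]) (mem_map_of_mem π ha),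
        hact1 (mem_map_of_mem π ha)]
    have hf : a⁻¹ * (s * u * s⁻¹) ∈ phiOf W := QuotientGroup.eq.1 hπeq.symm
    have huW := hW' s a ha
    have hinv : ⁅u, a⁆ * ⁅u, a⁆ = 1 := by
      obtain ⟨f, hf', hfe⟩ := hcm u huW a ha
      rw [← hfe, ← map_mul, ← pow_two, hΦel f hf', map_one]
    calc s * ⁅u, a⁆ * s⁻¹ = ⁅s * u * s⁻¹, u⁆ := by simp only [hu, commutatorElement_def]; group
      _ = ⁅a * (a⁻¹ * (s * u * s⁻¹)), u⁆ := by rw [mul_inv_cancel_left]
      _ = ⁅a, u⁆ := by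
        have hfu := hcenΦ _ hf u huW
        generalize a⁻¹ * (s * u * s⁻¹) = f at hfu
        rw [show ⁅a * f, u⁆ = a * (f * u) * f⁻¹ * a⁻¹ * u⁻¹ by simp only [commutatorElement_def]; group,
          ← hfu]
        simp only [commutatorElement_def]; group
      _ = ⁅u, a⁆ := by rw [← commutatorElement_inv]; exact inv_eq_of_mul_eq_one_right hinv
  -- the big totally singular subgroup
  obtain ⟨⟨w, hwW, hwv⟩⟩ : Nonempty {w : Q // w ∈ W ∧ π w = (v : Q ⧸ phiOf W)} := by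
    obtain ⟨w, hw, hwe⟩ := v.2
    exact ⟨⟨w, hw, hwe⟩⟩
  let Db : Q → Q := fun u => tb * u * tb⁻¹ * u
  let Dz : Q → Q := fun u => tz * u * tz⁻¹ * u
  have hπD : ∀ s u, π (s * u * s⁻¹ * u) = δ s (π u) := fun s u => by simp only [δ, act, map_mul, map_inv]
  have hDW : ∀ s, ∀ u ∈ W, s * u * s⁻¹ * u ∈ W := fun s u hu => mul_mem (hW' s u hu) hu
  have hq : ∀ s, τ s * τ s = 1 → ((τ s).b = 1 ∨ ((τ s).a = 0 ∧ (τ s).c = 1)) →
      ∀ u ∈ W, ρ ((s * u * s⁻¹ * u) * (s * u * s⁻¹ * u)) = 1 := by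
    intro s hs hmove u hu
    set a := s * u * s⁻¹ with ha
    have haW : a ∈ W := hW' s u hu
    have e : (a * u) * (a * u) = (a * ⁅u, a⁆ * a) * (u * u) := by simp only [commutatorElement_def]; group
    rw [e, hcenΦ _ (hcm u hu a haW) a haW, mul_assoc ⁅u, a⁆, map_mul, map_mul,
      show ρ (⁅u, a⁆) = br a u from hbrs a haW u hu, hiso s hs hmove u hu, one_mul,
      show a * a = s * (u * u) * s⁻¹ by rw [ha]; group, map_mul ρ (s * (u * u)) s⁻¹, map_mul ρ s (u * u),
      mem_center_iff.1 (hρc _ (hsqm u hu)) (ρ s), mul_assoc (ρ (u * u)), ← map_mul ρ s s⁻¹, mul_inv_cancel,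
      map_one, mul_one]
    exact hρ2 _ (hsqm u hu)
  have hbmove : (τ tb).b = 1 ∨ ((τ tb).a = 0 ∧ (τ tb).c = 1) := Or.inl (by rw [htb])
  have hzmove : (τ tz).b = 1 ∨ ((τ tz).a = 0 ∧ (τ tz).c = 1) := Or.inr (by rw [htz]; exact ⟨rfl, rfl⟩)
  have hbfix : ∀ u ∈ W, π (tb * (tb * u * tb⁻¹ * u) * tb⁻¹) = π (tb * u * tb⁻¹ * u) := by
    intro u hu
    rw [map_mul, map_mul, map_inv, hπD]
    exact hinv2 tb hbb (mem_map_of_mem π hu)
  have hbb' : ∀ u ∈ W, ∀ u' ∈ W, br (Db u) (Db u') = 1 := by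
    intro u hu u' hu'
    have h1 : br (Db u) (tb * u' * tb⁻¹) = br (Db u) u' := by
      rw [← hbrπ _ (hW' tb _ (hDW tb u hu)) _ (hDW tb u hu) (hbfix u hu) _ (hW' tb u' hu')]
      exact hbrconj tb _ (hDW tb u hu) _ hu'
    show br (Db u) (tb * u' * tb⁻¹ * u') = 1
    rw [hbrr _ (hW' tb u' hu') _ hu' _ (hDW tb u hu), h1]
    exact hρ2 _ (hcm _ (hDW tb u hu) _ hu')
  have hzb' : ∀ u ∈ W, br (Dz w) (Db u) = 1 := by
    intro u hu
    have hy := hDW tb u hu
    set y := Db u with hydef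
    -- move `z` to the other argument
    have h1 : br (tz * w * tz⁻¹) y = br w (tz * y * tz⁻¹) := by
      rw [← hbrconj tz _ (hW' tz w hwW) _ hy]
      refine hbrπ _ (hW' tz _ (hW' tz w hwW)) _ hwW ?_ _ (hW' tz y hy)
      have e1 : π (tz * (tz * w * tz⁻¹) * tz⁻¹) = act (tz * tz) (π w) := by
        simp only [act, map_mul, map_inv]; group
      rw [e1, hactτ (show τ (tz * tz) = τ 1 by rw [map_mul, hzz, map_one]) (mem_map_of_mem π hwW),
        hact1 (mem_map_of_mem π hwW)]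
    show br (tz * w * tz⁻¹ * w) y = 1
    rw [hbrl _ (hW' tz w hwW) _ hwW _ hy, h1, ← hbrr _ (hW' tz y hy) _ hy _ hwW]
    set m := tz * y * tz⁻¹ * y with hm
    have hmW : m ∈ W := hDW tz y hy
    have hmπ : π m = δ tb (δ tz (π u)) := by
      rw [hm, hπD, hπD]; exact hswap tz tb hzb (mem_map_of_mem π hu)
    have hσl : σ ≠ l := fun h => hl (by
      have : δ ta σ = 1 := by
        show act ta σ * σ = 1
        rw [hσdef, hinv2 ta haa hlV]
        exact hVs (hδ _ hlV)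
      rw [h] at this
      exact this)
    have hl1 : l ≠ 1 := fun h => hl (by
      show δ ta l = 1
      rw [h]; simp [δ, act])
    have hm2 : (⟨π m, mem_map_of_mem π hmW⟩ : ↥V) ∈ R₂ :=
      ⟨dh tz ⟨π u, mem_map_of_mem π hu⟩, ⟨_, rfl⟩, Subtype.ext hmπ.symm⟩
    obtain ⟨lw, hlwW, hlwl⟩ : ∃ lw ∈ W, π lw = l := id hlV
    have hbr1 : br w (c : Q) = 1 := by
      show ρ ⁅w, (c : Q)⁆ = 1
      rw [hcσ' w hwW, map_one]
    have hbrl1 : br w lw = 1 := by
      let m' := (tb * (tz * w * tz⁻¹) * tb⁻¹ * (tb * w * tb⁻¹)) * (tz * w * tz⁻¹ * w)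
      have hm'W : m' ∈ W := mul_mem (mul_mem (hW' tb _ (hW' tz w hwW)) (hW' tb w hwW)) (hDW tz w hwW)
      have hm'π : π lw = π m' := by
        rw [hlwl, hldef, ← hwv]
        simp only [m', δ, act, map_mul, map_inv]
        group
      rw [hbrs _ hlwW _ hwW, hbrπ _ hlwW _ hm'W hm'π _ hwW,
        hbrl _ (mul_mem (hW' tb _ (hW' tz w hwW)) (hW' tb w hwW)) _ (hDW tz w hwW) _ hwW,
        hbrl _ (hW' tb _ (hW' tz w hwW)) _ (hW' tb w hwW) _ hwW,
        hbrl _ (hW' tz w hwW) _ hwW _ hwW, hiso tb hbb hbmove w hwW, hiso tz hzz hzmove w hwW,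
        show br w w = 1 by simp [br]]
      rw [show tb * (tz * w * tz⁻¹) * tb⁻¹ = (tb * tz) * w * (tb * tz)⁻¹ by group,
        hiso (tb * tz) (by rw [map_mul, htb, htz]; decide) (Or.inl (by rw [map_mul, htb, htz]; decide)) w hwW]
      simp
    have hR2le : Nat.card ↥R₂ ≤ 4 := by
      have hle : R₂.map V.subtype ≤ fixedMod W (phiOf W) (W ⊔ closure {s | s ∈ [tz, tb]}) := by
        rintro _ ⟨y', hy', rfl⟩
        refine hfix _ y'.2 fun t ht => ?_
        simp only [List.mem_cons, List.not_mem_nil, or_false] at ht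
        rcases ht with rfl | rfl
        · exact (hR2fix y' hy').1
        · exact (hR2fix y' hy').2
      have h := (card_le_of_le hle).trans (hbd _ 4 2 (hcard3 _ _ _ (by rw [htz]; decide) (by rw [htb]; decide)
        (by rw [htz, htb]; decide) (hmemτ [tz, tb] tz (by simp)) (hmemτ [tz, tb] tb (by simp)))
        (by norm_num) (by norm_num))
      rw [card_map_of_injective V.subtype_injective] at h
      exact h
    have hlist : π m = 1 ∨ π m = l ∨ π m = σ ∨ π m = σ * l := by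
      by_contra h
      push Not at h
      obtain ⟨n1, n2, n3, n4⟩ := h
      have hmem : ∀ z ∈ ({1, l, σ, σ * l, π m} : Set (Q ⧸ phiOf W)), z ∈ R₂.map V.subtype := by
        have hl2 : (⟨l, hlV⟩ : ↥V) ∈ R₂ := ⟨dh tz v, ⟨v, rfl⟩, rfl⟩
        have hσR : σ ∈ R₂.map V.subtype := by
          -- `R₂` is the whole fixed space of `⟨z, b⟩`
          have hle : R₂.map V.subtype ≤ fixedMod W (phiOf W) (W ⊔ closure {s | s ∈ [tz, tb]}) := by
            rintro _ ⟨y', hy', rfl⟩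
            refine hfix _ y'.2 fun t ht => ?_
            simp only [List.mem_cons, List.not_mem_nil, or_false] at ht
            rcases ht with rfl | rfl
            · exact (hR2fix y' hy').1
            · exact (hR2fix y' hy').2
          have h := hbd _ 4 2 (hcard3 _ _ _ (by rw [htz]; decide) (by rw [htb]; decide)
            (by rw [htz, htb]; decide) (hmemτ [tz, tb] tz (by simp)) (hmemτ [tz, tb] tb (by simp)))
            (by norm_num) (by norm_num)
          rw [eq_of_le_of_card_ge hle (by rw [card_map_of_injective V.subtype_injective]; omega)]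
          exact ⟨hσtop.1, centralizer_le (Set.image_mono (SetLike.coe_subset_coe.2 le_top)) hσtop.2⟩
        rintro z (rfl | rfl | rfl | rfl | rfl)
        · exact one_mem _
        · exact mem_map_of_mem V.subtype hl2
        · exact hσR
        · exact mul_mem hσR (mem_map_of_mem V.subtype hl2)
        · exact mem_map_of_mem V.subtype hm2
      have h5 : Nat.card ({1, l, σ, σ * l, π m} : Set (Q ⧸ phiOf W)) ≤ Nat.card ↥(R₂.map V.subtype) :=
        Nat.card_le_card_of_injective (fun z : ({1, l, σ, σ * l, π m} : Set (Q ⧸ phiOf W)) =>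
          (⟨z.1, hmem _ z.2⟩ : ↥(R₂.map V.subtype)))
          fun z z' h => Subtype.ext (congrArg (fun w : ↥(R₂.map V.subtype) => (w : Q ⧸ phiOf W)) h)
      have hσ1 : σ ≠ 1 := hl
      have hσl1 : σ * l ≠ 1 := fun h => hσl (by
        rw [eq_inv_of_mul_eq_one_left h]
        exact inv_eq_of_mul_eq_one_right (hVs hlV))
      rw [Nat.card_coe_set_eq, Set.ncard_insert_of_notMem, Set.ncard_insert_of_notMem,
        Set.ncard_insert_of_notMem, Set.ncard_pair (Ne.symm n4)] at h5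
      · rw [card_map_of_injective V.subtype_injective] at h5; omega
      · simp only [Set.mem_insert_iff, Set.mem_singleton_iff, not_or]
        exact ⟨by simpa using hl1, Ne.symm n3⟩
      · simp only [Set.mem_insert_iff, Set.mem_singleton_iff, not_or]
        exact ⟨hσl.symm, by simpa using hσ1, Ne.symm n2⟩
      · simp only [Set.mem_insert_iff, Set.mem_singleton_iff, not_or]
        exact ⟨hl1.symm, hσ1.symm, hσl1.symm, Ne.symm n1⟩
    rw [hbrs _ hmW _ hwW]
    rcases hlist with h | h | h | h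
    · rw [hbrπ _ hmW 1 (one_mem W) (by rw [h, map_one]) _ hwW]
      exact hbrφ 1 (one_mem _) _ hwW
    · rw [hbrπ _ hmW _ hlwW (h.trans hlwl.symm) _ hwW, hbrs _ hwW _ hlwW]; exact hbrl1
    · rw [hbrπ _ hmW _ c.2 (h.trans hcσ.symm) _ hwW, hbrs _ hwW _ c.2]; exact hbr1
    · rw [hbrπ _ hmW _ (mul_mem c.2 hlwW) (by rw [h, map_mul, hcσ, hlwl]) _ hwW,
        hbrl _ c.2 _ hlwW _ hwW, hbrs _ hwW _ c.2, hbrs _ hwW _ hlwW, hbr1, hbrl1, mul_one]
  -- assemble
  let R : Subgroup Q := phiOf W ⊔ closure ((Db '' (W : Set Q)) ∪ {Dz w})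
  have hgensW : (Db '' (W : Set Q)) ∪ {Dz w} ⊆ (W : Set Q) := by
    rintro x (⟨u, hu, rfl⟩ | rfl)
    · exact hDW tb u hu
    · exact hDW tz w hwW
  have hRW : R ≤ W := sup_le (map_subtype_le _) ((closure_le _).2 hgensW)
  have hgq : ∀ x ∈ (Db '' (W : Set Q)) ∪ {Dz w}, ρ (x * x) = 1 := by
    rintro x (⟨u, hu, rfl⟩ | rfl)
    · exact hq tb hbb hbmove u hu
    · exact hq tz hzz hzmove w hwW
  have hgb : ∀ x ∈ (Db '' (W : Set Q)) ∪ {Dz w}, ∀ y ∈ (Db '' (W : Set Q)) ∪ {Dz w}, br x y = 1 := by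
    rintro x (⟨u, hu, rfl⟩ | rfl) y (⟨u', hu', rfl⟩ | rfl)
    · exact hbb' u hu u' hu'
    · rw [hbrs _ (hDW tz w hwW) _ (hDW tb u hu)]; exact hzb' u hu
    · exact hzb' u' hu'
    · simp [br]
  have hRq : ∀ x ∈ R, ρ (x * x) = 1 ∧ ∀ y ∈ R, br x y = 1 := by
    -- isotropy against the generators
    have hRy : ∀ x ∈ W, (∀ y ∈ (Db '' (W : Set Q)) ∪ {Dz w}, br x y = 1) → ∀ y ∈ R, br x y = 1 := by
      intro x hx h
      let K : Subgroup Q :=
        { carrier := {y | y ∈ W ∧ br x y = 1}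
          one_mem' := ⟨one_mem W, by simp [br]⟩
          mul_mem' := fun {a b} ha hb => ⟨mul_mem ha.1 hb.1, by rw [hbrr _ ha.1 _ hb.1 _ hx, ha.2, hb.2, one_mul]⟩
          inv_mem' := fun {a} ha => ⟨inv_mem ha.1, by
            have := hbrr _ ha.1 _ (inv_mem ha.1) _ hx
            rw [ha.2, one_mul, mul_inv_cancel, show br x 1 = 1 by simp [br]] at this
            exact this.symm⟩ }
      have : R ≤ K := sup_le (fun f hf => ⟨map_subtype_le _ hf, by
          rw [hbrs _ (map_subtype_le _ hf) _ hx]; exact hbrφ f hf x hx⟩)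
        ((closure_le _).2 fun y hy => ⟨hgensW hy, h y hy⟩)
      exact fun y hy => (this hy).2
    have hgen2 : ∀ x ∈ (Db '' (W : Set Q)) ∪ {Dz w}, ∀ y ∈ R, br x y = 1 := fun x hx =>
      hRy x (hgensW hx) (hgb x hx)
    have hall : ∀ x ∈ R, ∀ y ∈ R, br x y = 1 := fun x hx => hRy x (hRW hx) fun y hy => by
      rw [hbrs _ (hgensW hy) _ (hRW hx)]; exact hgen2 y hy x hx
    intro x hx
    refine ⟨?_, hall x hx⟩
    let K : Subgroup Q :=
      { carrier := {y | y ∈ R ∧ ρ (y * y) = 1}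
        one_mem' := ⟨one_mem R, by simp⟩
        mul_mem' := fun {a b} ha hb => ⟨mul_mem ha.1 hb.1, by
          have e : (a * b) * (a * b) = (a * ⁅b, a⁆ * a) * (b * b) := by simp only [commutatorElement_def]; group
          rw [e, hcenΦ _ (hcm b (hRW hb.1) a (hRW ha.1)) a (hRW ha.1), mul_assoc ⁅b, a⁆, map_mul, map_mul,
            ha.2, hb.2, show ρ ⁅b, a⁆ = 1 from hall b hb.1 a ha.1]
          simp⟩
        inv_mem' := fun {a} ha => ⟨inv_mem ha.1, by rw [← mul_inv_rev, map_inv, ha.2, inv_one]⟩ }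
    have hRK : R ≤ K := sup_le (fun f hf => ⟨mem_sup_left hf, by rw [map_mul]; exact hρ2 f hf⟩)
      ((closure_le _).2 fun y hy => ⟨mem_sup_right (Subgroup.subset_closure hy), hgq y hy⟩)
    exact (hRK hx).2
  -- the size of `R`
  have hRcard : 2 ^ 5 ≤ Nat.card ↥(R.map π) := by
    have hrange : 2 ^ 4 ≤ Nat.card ↥((dh tb).range.map V.subtype) := by
      have h := hcardV ⊤ tb (2 ^ 4) [tb] (fun y _ hy t ht => by
          rw [List.mem_singleton] at ht; subst ht; exact hfixδ y.2 hy)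
        (hbd _ 2 4 (hcard2 _ _ (by rw [htb]; decide) (hmemτ [tb] tb (by simp))) (by norm_num) (by norm_num))
      rw [card_top, ← MonoidHom.range_eq_map, hV256] at h
      rw [card_map_of_injective V.subtype_injective]
      omega
    have hlt : (dh tb).range.map V.subtype < R.map π := by
      refine lt_of_le_of_ne ?_ fun e => ?_
      · rintro _ ⟨_, ⟨⟨y, hy⟩, rfl⟩, rfl⟩
        obtain ⟨u, hu, rfl⟩ := hy
        exact ⟨Db u, mem_sup_right (Subgroup.subset_closure (Or.inl ⟨u, hu, rfl⟩)), hπD tb u⟩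
      · have hmem : π (Dz w) ∈ R.map π :=
          mem_map_of_mem π (mem_sup_right (Subgroup.subset_closure (Or.inr rfl)))
        rw [← e] at hmem
        obtain ⟨_, ⟨y, rfl⟩, hy⟩ := hmem
        have hl0 : l = 1 := by
          rw [hldef, ← hwv, ← hπD tz w, show π (tz * w * tz⁻¹ * w) = δ tb (y : Q ⧸ phiOf W) from hy.symm]
          show act tb (δ tb y) * δ tb y = 1
          rw [hinv2 tb hbb y.2]
          exact hVs (hδ _ y.2)
        refine hl ?_
        rw [hσdef, hl0]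
        simp [δ, act]
    have := double_le_of_lt (hQ.to_quotient (phiOf W)) hlt
    omega
  -- contradiction with the index condition
  let R' : Subgroup ↥W := R.subgroupOf W
  have hR8 : R'.index ≤ 8 := by
    have hΦR : phiOf W ≤ R := le_sup_left
    have h := Cfsg.Agent.Lib.Coprime.card_map_mul_card_inf_ker π R
    rw [hπ, QuotientGroup.ker_mk', inf_eq_right.2 hΦR, hΦcard] at h
    have h2 := R'.card_mul_index
    rw [Nat.card_congr (subgroupOfEquivOfLe hRW).toEquiv] at h2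
    have hWc : Nat.card ↥W = 2 ^ 11 := by
      have hh := Cfsg.Agent.Lib.Coprime.card_map_mul_card_inf_ker π W
      rw [hπ, QuotientGroup.ker_mk', inf_eq_right.2 (map_subtype_le _ : phiOf W ≤ W), hΦcard] at hh
      rw [← hh, ← hπ, ← hV, hV256]
      norm_num
    rw [hWc, ← h] at h2
    by_contra hlt
    push Not at hlt
    have : 2 ^ 5 * 8 * 9 ≤ Nat.card ↥(R.map (QuotientGroup.mk' (phiOf W))) * 8 * R'.index :=
      Nat.mul_le_mul (Nat.mul_le_mul_right 8 hRcard) hlt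
    omega
  have hΦsub : phiOf W ≤ Zc 2 := by
    rintro _ ⟨f, hf, rfl⟩
    have hfR : f ∈ R' := hd R' (by omega) hf
    have hsub : frattini ↥R' ≤ ((Zc 2).subgroupOf W).subgroupOf R' := by
      refine Cfsg.Agent.Lib.PGroupFrattini.frattini_le Nat.prime_two _ ?_ fun x => ?_
      · change ⁅(⊤ : Subgroup ↥R'), (⊤ : Subgroup ↥R')⁆ ≤ _
        rw [commutator_le]
        intro a _ b _
        have h := (hRq _ a.2).2 _ b.2
        exact (QuotientGroup.eq_one_iff (N := Zc 2) _).1 h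
      · have h := (hRq _ x.2).1
        rw [← pow_two] at h
        exact (QuotientGroup.eq_one_iff (N := Zc 2) _).1 h
    have hfΦ : (⟨f, hfR⟩ : ↥R') ∈ frattini ↥R' := by
      simp only [frattini, Order.radical, mem_iInf]
      intro K hK
      have hKi := (Cfsg.Agent.Lib.PGroupFrattini.coatom_index (p := 2) ((hQ.to_subgroup W).to_subgroup R') hK).2
      have h16 : (K.map R'.subtype).index ≤ 16 := by rw [index_map_subtype, hKi]; omega
      obtain ⟨k, hk, hkf⟩ := hd _ h16 hf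
      rwa [show (⟨f, hfR⟩ : ↥R') = k from Subtype.ext hkf.symm]
    exact hsub hfΦ
  have := card_le_of_le hΦsub
  rw [hΦcard, zc_card hQ hlarge' h4 (by norm_num)] at this
  norm_num at this

theorem structure_main (hQ : IsPGroup 2 Q) (hlarge : 2 ^ 14 ≤ Nat.card Q) (h4 : Nat.card (Zc 4) = 16)
    (W : Subgroup Q) (hW : W = centralizer ((Zc 3 : Subgroup Q) : Set Q))
    (hc : Nat.card ↥(frattini ↥W) ≤ 8) (hd : ∀ U : Subgroup ↥W, U.index ≤ 16 → frattini ↥W ≤ U) :
    Nat.card Q = 2 ^ 14 ∧ (commutator ↥W).map W.subtype = Zc 3 ∧ (frattini ↥W).map W.subtype = Zc 3 ∧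
      Nat.card ↥(center ↥W) = 8 ∧ Nat.card ↥(Zc 3) = 8 ∧ (∀ z ∈ Zc 3, z ^ 2 = 1) ∧
      (∃ (_ : W.Normal), Nonempty (Q ⧸ W ≃* DihedralGroup 4)) ∧
      Nat.card (↥W ⧸ commutator ↥W) = 2 ^ 8 ∧ (∀ x : ↥W ⧸ commutator ↥W, x ^ 2 = 1) := by
  have hc' : Nat.card (phiOf W) ≤ 8 := by rwa [card_map_of_injective W.subtype_injective]
  obtain ⟨hQc, hWidx, hΦc, hΦ3, hrel⟩ := counts hQ hlarge h4 W hW hc'
  obtain ⟨hder, hsq, hcen, hidx⟩ := derived_eq hQ hlarge h4 W hW hc' hd
  have hlarge' : 16 < Nat.card Q := lt_of_lt_of_le (by norm_num) hlarge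
  have hel : ∀ z ∈ Zc 3, z ^ 2 = 1 := by
    intro z hz
    rw [← hΦ3] at hz
    obtain ⟨f, hf, rfl⟩ := hz
    rw [← map_pow, hsq f hf, map_one]
  obtain ⟨τ, hker, hsurj, hfp⟩ := exists_action hQ hlarge' h4 hel (hW ▸ hWidx)
  rw [← hW] at hker
  haveI hWn : W.Normal := hker ▸ τ.normal_ker
  have hZ : center ↥W = frattini ↥W :=
    le_antisymm (center_le hQ hlarge h4 W hW hc' hd τ hker hsurj hfp) hcen
  refine ⟨hQc, by rw [hder]; exact hΦ3, hΦ3, ?_, ?_, hel, ⟨hWn, ⟨?_⟩⟩, ?_, ?_⟩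
  · rw [hZ, ← card_map_of_injective W.subtype_injective]; exact hΦc
  · rw [← hΦ3]; exact hΦc
  · exact ((QuotientGroup.quotientMulEquivOfEq hker.symm).trans
      (QuotientGroup.quotientKerEquivOfSurjective τ hsurj)).trans Tri.equivDihedral.symm
  · rw [← index_eq_card, hder, hidx]
  · intro x
    obtain ⟨y, rfl⟩ := QuotientGroup.mk'_surjective (commutator ↥W) x
    rw [← map_pow]
    exact (QuotientGroup.eq_one_iff (N := commutator ↥W) _).2
      (hder ▸ Cfsg.Agent.Lib.PGroupFrattini.pow_mem_frattini (hQ.to_subgroup W) y)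

end Cfsg.Agent.Lib.RudvalisType
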