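import Mathlib
import Cfsg.Agent.Lib.FPF.TIHall
import Cfsg.Agent.Lib.Coprime.Abelian
import Cfsg.Agent.Lib.Uniq.PGroup

/-!
The fixed points of a complement in the normalizer of a TI Hall subgroup.
-/

set_option autoImplicit false

namespace Cfsg.Agent.Lib.GenStruct

open Subgroup
open scoped Pointwise commutatorElement

/-- Two coprime powers in a subgroup put the element in it. -/
theorem mem_of_coprime_pow_mem {G : Type*} [Group G] (S : Subgroup G) {x : G} {a b : ℕ}
    (hab : a.Coprime b) (ha : x ^ a ∈ S) (hb : x ^ b ∈ S) : x ∈ S := by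
  have h := Nat.gcd_eq_gcd_ab a b
  rw [Nat.coprime_iff_gcd_eq_one.mp hab] at h
  have e : x = (x ^ a) ^ a.gcdA b * (x ^ b) ^ a.gcdB b := by
    rw [← zpow_natCast, ← zpow_natCast, ← zpow_mul, ← zpow_mul, ← zpow_add, ← h, Nat.cast_one, zpow_one]
  rw [e]; exact mul_mem (zpow_mem ha _) (zpow_mem hb _)

/-- In a Z-group, automorphisms fixing a Sylow subgroup cannot have all of the group as displacements. -/
theorem not_dvd_of_fixed_sylow {K : Type*} [Group K] [Finite K] [IsZGroup K] {ι : Type*} (φ : ι → MulAut K)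
    (hgen : closure {y : K | ∃ x i, y = x * (φ i x)⁻¹} = ⊤) {p : ℕ} [hp : Fact p.Prime] (P : Sylow p K)
    (hfix : ∀ i, ∀ u ∈ (P : Subgroup K), φ i u = u) : ¬ p ∣ Nat.card K := by
  intro hdvd
  obtain ⟨a, ha⟩ := IsPGroup.iff_card.1 P.2
  have hpow : ∀ u ∈ (P : Subgroup K), u ^ p ^ a = 1 := fun u hu => by
    have := pow_card_eq_one' (x := (⟨u, hu⟩ : (P : Subgroup K)))
    rw [ha] at this
    exact congrArg Subtype.val this
  set C := commutator K with hC
  have hcopP : ∀ n : ℕ, ¬ p ∣ n → n.Coprime (p ^ a) := fun n hn =>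
    (((Fact.out : p.Prime).coprime_iff_not_dvd.2 hn).symm).pow_right a
  by_cases hpC : p ∣ Nat.card C
  · haveI := IsZGroup.isCyclic_commutator K
    have hidx : ¬ p ∣ C.index := fun h =>
      (Fact.out : p.Prime).ne_one (Nat.eq_one_of_dvd_coprimes (IsZGroup.coprime_commutator_index K) hpC h)
    have hPC : (P : Subgroup K) ≤ C := fun u hu =>
      mem_of_coprime_pow_mem C (hcopP _ hidx) (C.pow_index_mem u) (by rw [hpow u hu]; exact one_mem C)
    have hconj : ∀ g : K, ∀ u ∈ (P : Subgroup K), g * u * g⁻¹ ∈ (P : Subgroup K) := by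
      intro g u hu
      have hy : g * u * g⁻¹ ∈ C := Subgroup.Normal.conj_mem inferInstance _ (hPC hu) g
      haveI : IsMulCommutative C := inferInstance
      haveI : ((P : Subgroup K).subgroupOf C).Normal := ⟨fun x hx c => by
        rwa [mul_comm' c x, mul_inv_cancel_right]⟩
      have h1 : (g * u * g⁻¹) ^ (P : Subgroup K).relIndex C ∈ (P : Subgroup K) := by
        have := ((P : Subgroup K).subgroupOf C).pow_index_mem ⟨_, hy⟩
        simpa [mem_subgroupOf, Subgroup.relIndex] using this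
      refine mem_of_coprime_pow_mem (P : Subgroup K) (hcopP _ fun h => P.not_dvd_index ?_) h1
        (by rw [conj_pow, hpow u hu]; simp)
      exact h.trans ⟨C.index, (relIndex_mul_index hPC).symm⟩
    have hcent : (⊤ : Subgroup K) ≤ centralizer ((P : Subgroup K) : Set K) := by
      rw [← hgen, closure_le]
      rintro y ⟨x, i, rfl⟩
      rw [SetLike.mem_coe, mem_centralizer_iff]
      intro u hu
      have hw := hfix i _ (by simpa using hconj x⁻¹ u hu : x⁻¹ * u * x ∈ (P : Subgroup K))
      rw [map_mul, map_mul, map_inv, hfix i u hu] at hw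
      have e : u = φ i x * (x⁻¹ * u * x) * (φ i x)⁻¹ := by rw [← hw]; group
      calc u * (x * (φ i x)⁻¹) = x * ((x⁻¹ * u * x) * (φ i x)⁻¹) := by group
        _ = x * (φ i x)⁻¹ * (φ i x * (x⁻¹ * u * x) * (φ i x)⁻¹) := by group
        _ = x * (φ i x)⁻¹ * u := by rw [← e]
    have hN : normalizer ((P : Subgroup K) : Set K) ≤ centralizer ((P : Subgroup K) : Set K) :=
      le_top.trans hcent
    open scoped IsMulCommutative in
    have hker : C ≤ (MonoidHom.transferSylow P hN).ker := Abelianization.commutator_subset_ker _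
    have hcompl := MonoidHom.ker_transferSylow_isComplement' P hN
    exact P.ne_bot_of_dvd_card hdvd ((Subgroup.eq_bot_iff_forall _).2 fun u hu =>
      mem_bot.1 (hcompl.disjoint.le_bot (mem_inf.2 ⟨hker (hPC hu), hu⟩)))
  · let e := (P : Subgroup K).index
    have hsurj : Function.Surjective (Abelianization.of : K →* Abelianization K) :=
      QuotientGroup.mk'_surjective _
    have hidx : ((P : Subgroup K).map Abelianization.of).index ∣ e :=
      (P : Subgroup K).index_map_dvd hsurj
    have hin : ∀ x : K, ∃ u ∈ (P : Subgroup K), Abelianization.of u = Abelianization.of x ^ e := by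
      intro x
      obtain ⟨k, hk⟩ := hidx
      have h := pow_mem (((P : Subgroup K).map Abelianization.of).pow_index_mem (Abelianization.of x)) k
      rw [← pow_mul, ← hk, mem_map] at h
      exact h
    let f : K →* Abelianization K := (powMonoidHom e).comp Abelianization.of
    have hf : ∀ x, f x = Abelianization.of x ^ e := fun _ => rfl
    have hle : (⊤ : Subgroup K) ≤ f.ker := by
      rw [← hgen, closure_le]
      rintro y ⟨x, i, rfl⟩
      obtain ⟨u, hu, hux⟩ := hin x
      have hm : ∀ z, Abelianization.map (φ i).toMonoidHom (Abelianization.of z) = Abelianization.of (φ i z) :=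
        fun z => Abelianization.map_of _ z
      have h1 : Abelianization.of (φ i x) ^ e = Abelianization.of x ^ e := by
        rw [← hm, ← map_pow, ← hux, hm, hfix i u hu]
      rw [SetLike.mem_coe, MonoidHom.mem_ker, hf, map_mul, map_inv, mul_pow, inv_pow, h1, mul_inv_cancel]
    refine hpC ?_
    have hPC : (P : Subgroup K) ≤ C := fun u hu => by
      refine mem_of_coprime_pow_mem C (hcopP _ P.not_dvd_index) ?_ (by rw [hpow u hu]; exact one_mem C)
      have := hle (mem_top u)
      rw [MonoidHom.mem_ker, hf, ← map_pow] at this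
      rwa [hC, ← Abelianization.ker_of, MonoidHom.mem_ker]
    exact (P.dvd_card_of_dvd_card hdvd).trans (card_dvd_of_le hPC)

variable {G : Type*} [Group G] [Finite G]

/-- Index divisibility for a subgroup normalising another one. -/
theorem relIndex_dvd_relIndex_of_le_normalizer {A N K : Subgroup G} (hA : A ≤ K) (hN : N ≤ K)
    (h : A ≤ normalizer (N : Set G)) : A.relIndex N ∣ A.relIndex K := by
  have h1 : Nat.card (A ⊓ N : Subgroup G) * A.relIndex N = Nat.card N := by
    rw [← inf_relIndex_right, ← relIndex_bot_left (A ⊓ N), ← relIndex_bot_left N]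
    exact relIndex_mul_relIndex _ _ _ bot_le inf_le_right
  have h2 : Nat.card A * A.relIndex K = Nat.card K := by
    rw [← relIndex_bot_left A, ← relIndex_bot_left K]
    exact relIndex_mul_relIndex _ _ _ bot_le hA
  have h3 := Lib.Coprime.card_sup_mul_card_inf_of_le_normalizer h
  rw [← h1] at h3
  have h4 : Nat.card (A ⊔ N : Subgroup G) = Nat.card A * A.relIndex N :=
    Nat.eq_of_mul_eq_mul_right (Nat.card_pos (α := (A ⊓ N : Subgroup G))) (by rw [h3]; ring)
  have h5 := card_dvd_of_le (sup_le hA hN)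
  rw [h4, ← h2] at h5
  exact (mul_dvd_mul_iff_left (Nat.card_pos (α := A)).ne').1 h5

/-- If `Q` centralizes an element of order `p` of the Z-group `H`, then `p` is prime to `⁅H, Q⁆`. -/
theorem not_dvd_card_commutator {H Q : Subgroup G} [IsZGroup H] (hQH : Q ≤ normalizer (H : Set G))
    (hcop : (Nat.card Q).Coprime (Nat.card H)) {p : ℕ} [hp : Fact p.Prime] {x : G} (hxH : x ∈ H)
    (hxQ : x ∈ centralizer (Q : Set G)) (hx : orderOf x = p) : ¬ p ∣ Nat.card ↥(⁅H, Q⁆ : Subgroup G) := by
  have hsolv : Group.IsSolvable Q ∨ Group.IsSolvable H := Or.inr inferInstance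
  have hx1 : x ≠ 1 := fun e => (Fact.out : p.Prime).ne_one (by rw [← hx, e, orderOf_one])
  have hQx : Q ≤ centralizer ((zpowers x : Subgroup G) : Set G) :=
    le_centralizer_iff.1 (zpowers_le.2 hxQ)
  obtain ⟨S, hxS, hQS⟩ := Lib.Coprime.exists_invariant_sylow_ge hQH hcop hsolv (p := p)
    (zpowers_le.2 hxH) (IsPGroup.of_card (n := 1) (by rw [Nat.card_zpowers, hx, pow_one]))
    (hQx.trans (centralizer_le_normalizer _))
  set P := (S : Subgroup H).map H.subtype with hP
  have hPH : P ≤ H := map_subtype_le _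
  haveI : IsCyclic P :=
    isCyclic_of_surjective _ ((S : Subgroup H).equivMapOfInjective _ H.subtype_injective).surjective
  have hPp : IsPGroup p P := S.2.map _
  have hcopP : (Nat.card Q).Coprime (Nat.card P) := hcop.coprime_dvd_right (card_dvd_of_le hPH)
  have hQP : Q ≤ centralizer (P : Set G) := by
    rcases hPp.commutator_eq_bot_or_commutator_eq_self hQS hcopP.symm with h | h
    · exact commutator_eq_bot_iff_le_centralizer.1 h
    · exfalso
      rw [commutator_comm] at h
      have hbot := Lib.Coprime.inf_centralizer_inf_commutator hQS hcopP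
      rw [h] at hbot
      refine hx1 (mem_bot.1 ?_)
      rw [← hbot]
      exact ⟨⟨hxS (mem_zpowers x), hxQ⟩, hxS (mem_zpowers x)⟩
  set M : Subgroup G := ⁅H, Q⁆ with hMdef
  have hMH : M ≤ H := Lib.Coprime.commutator_le_of_le_normalizer' hQH
  haveI : IsZGroup M := IsZGroup.of_injective (inclusion_injective hMH)
  have hQM : Q ≤ normalizer (M : Set G) := Lib.Coprime.right_le_normalizer_commutator H Q
  let φ : Q → MulAut M := fun q => M.normalizerMonoidHom ⟨q, hQM q.2⟩
  have hφ : ∀ (q : Q) (m : M), (φ q m : G) = q * m * (q : G)⁻¹ := fun q m => rfl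
  have hgen : closure {y : M | ∃ m q, y = m * (φ q m)⁻¹} = ⊤ := by
    refine map_injective M.subtype_injective (le_antisymm (map_mono le_top) ?_)
    rw [← MonoidHom.range_eq_map, range_subtype]
    conv_lhs => rw [hMdef, ← Lib.Coprime.commutator_commutator hQH hcop hsolv]
    rw [commutator_le]
    intro m hm q hq
    refine ⟨⟨m, hm⟩ * (φ ⟨q, hq⟩ ⟨m, hm⟩)⁻¹, subset_closure ⟨_, _, rfl⟩, ?_⟩
    simp [hφ, commutatorElement_def, mul_assoc]
  have hnd : ¬ p ∣ (P.subgroupOf M).index := by
    intro h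
    refine S.not_dvd_index ?_
    have h2 : P.relIndex H = (S : Subgroup H).index := by
      rw [hP, relIndex, subgroupOf, comap_map_eq_self_of_injective H.subtype_injective]
    rw [← h2]
    exact h.trans (relIndex_dvd_relIndex_of_le_normalizer hPH hMH
      (hPH.trans (Lib.Coprime.left_le_normalizer_commutator H Q)))
  exact not_dvd_of_fixed_sylow φ hgen ((hPp.comap_of_injective M.subtype M.subtype_injective).toSylow hnd)
    fun q u hu => Subtype.ext (by
      rw [hφ, ← mem_centralizer_iff.1 (hQP q.2) (u : G) hu, mul_inv_cancel_right])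

/-- The fixed points of `Q` on a TI Hall subgroup form a Hall subgroup with a normal complement. -/
theorem tiHall_fixed_points (H : Subgroup G)
    (hTI : Cfsg.IsTISubset (H : Set G)) (hnn : ¬ H.Normal)
    (hHall : (Nat.card H).Coprime (H.subgroupOf (normalizer (H : Set G))).index)
    (hsep : ∃ (n : ℕ) (M : Fin (n + 1) → Subgroup G), M 0 = ⊥ ∧ M (Fin.last n) = ⊤ ∧ Monotone M ∧ (∀ i, (M i).Normal) ∧
      ∀ i : Fin n, (∀ q : ℕ, q.Prime → q ∣ (M i.castSucc).relIndex (M i.succ) → q ∣ Nat.card H) ∨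
        ((M i.castSucc).relIndex (M i.succ)).Coprime (Nat.card H))
    (h2 : ∀ P : Sylow 2 H, IsMulCommutative (P : Subgroup H))
    (Q : Subgroup G) (hQ : Q ≤ normalizer (H : Set G)) (hQH : Q ⊓ H = ⊥)
    (hQH' : Q ⊔ H = normalizer (H : Set G)) :
    (Nat.card ↥(H ⊓ centralizer (Q : Set G))).Coprime (H ⊓ centralizer (Q : Set G)).index ∧
    ∃ N : Subgroup G, N.Normal ∧ N.IsComplement' (H ⊓ centralizer (Q : Set G)) := by
  classical
  have hHidx := Lib.FPF.coprime_index_of_ti hTI hHall
  have hcent : ∀ h ∈ H, h ≠ 1 → centralizer ({h} : Set G) ≤ normalizer (H : Set G) := by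
    intro h hh h1 g hg
    refine Lib.FPF.mem_normalizer_of_ti hTI hh h1 ?_
    rw [mem_centralizer_singleton_iff.1 hg, mul_inv_cancel_right]
    exact hh
  have hH1 : H ≠ ⊥ := fun e => hnn (e ▸ inferInstance)
  -- the largest normal subgroup of order prime to `H`
  obtain ⟨O, -, ⟨hOn, hOc⟩, hOmax⟩ := Finite.exists_le_maximal
    (p := fun O : Subgroup G => O.Normal ∧ (Nat.card O).Coprime (Nat.card H))
    (a := ⊥) ⟨inferInstance, by rw [card_bot]; exact Nat.coprime_one_left _⟩
  have hOge : ∀ N : Subgroup G, N.Normal → (Nat.card N).Coprime (Nat.card H) → N ≤ O := by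
    intro N hN hNc
    refine le_sup_left.trans (hOmax (y := N ⊔ O) ⟨inferInstance, ?_⟩ le_sup_right)
    exact (hNc.mul_left hOc).coprime_dvd_left
      ⟨_, (Lib.Coprime.card_sup_mul_card_inf_of_le_normalizer (by rw [normalizer_eq_top]; exact le_top)).symm⟩
  have hOnz : ∀ A : Subgroup G, A ≤ normalizer (O : Set G) := fun A => by
    rw [normalizer_eq_top]; exact le_top
  -- a normal subgroup `L = O ⊔ (L ⊓ H)` not contained in `O`
  obtain ⟨n, Ms, h0, hlast, hmono, hnorm, hfac⟩ := hsep
  obtain ⟨i, hic, his⟩ : ∃ i : Fin n, Ms i.castSucc ≤ O ∧ ¬ Ms i.succ ≤ O := by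
    by_contra hno
    push Not at hno
    have hall : ∀ j, Ms j ≤ O := fun j => Fin.induction (by rw [h0]; exact bot_le) hno j
    have hOtop : O = ⊤ := top_le_iff.1 (hlast ▸ hall (Fin.last n))
    refine hH1 (Subgroup.card_eq_one.1 ?_)
    refine Nat.eq_one_of_dvd_coprimes hOc ?_ dvd_rfl
    rw [hOtop, card_top]; exact H.card_subgroup_dvd_card
  haveI := hnorm i.succ
  have hpi : ∀ q : ℕ, q.Prime → q ∣ (Ms i.castSucc).relIndex (Ms i.succ) → q ∣ Nat.card H := by
    refine (hfac i).resolve_right fun hc => his (hOge _ inferInstance ?_)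
    rw [← relIndex_bot_left (Ms i.succ), ← relIndex_mul_relIndex _ _ _ bot_le
      (hmono (Fin.castSucc_le_succ i)), relIndex_bot_left]
    exact (hOc.coprime_dvd_left (card_dvd_of_le hic)).mul_left hc
  set L := Ms i.succ ⊔ O with hL
  haveI hLn : L.Normal := inferInstance
  have hLOH : L ≤ O ⊔ H := by
    rw [← relIndex_eq_one]
    have hd1 : (O ⊔ H).relIndex L ∣ (Ms i.castSucc).relIndex (Ms i.succ) := by
      refine (relIndex_dvd_of_le_left L (le_sup_left (b := H))).trans ?_
      rw [hL, relIndex_sup_right]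
      exact relIndex_dvd_of_le_left _ hic
    have hd2 : (O ⊔ H).relIndex L ∣ H.index := by
      refine Dvd.dvd.trans ?_ (index_dvd_of_le (le_sup_right : H ≤ O ⊔ H))
      rw [← relIndex_top_right (O ⊔ H)]
      exact relIndex_dvd_relIndex_of_le_normalizer le_top le_top (by rw [normalizer_eq_top]; exact le_top)
    by_contra hne
    obtain ⟨q, hq, hqd⟩ := Nat.exists_prime_and_dvd hne
    exact hq.ne_one (Nat.eq_one_of_dvd_coprimes hHidx (hpi q hq (hqd.trans hd1)) (hqd.trans hd2))
  have hLsplit : ∀ l ∈ L, ∃ o ∈ O, ∃ h ∈ L ⊓ H, o * h = l := by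
    intro l hl
    have hl' := hLOH hl
    rw [sup_comm, Lib.Coprime.mem_sup_of_le_normalizer (hOnz H)] at hl'
    obtain ⟨h, hh, o, ho, rfl⟩ := hl'
    refine ⟨h * o * h⁻¹, hOn.conj_mem o ho h, h, ⟨?_, hh⟩, by group⟩
    have := mul_mem hl (inv_mem ((le_sup_right : O ≤ L) ho))
    rwa [mul_inv_cancel_right] at this
  set H0 := L ⊓ H with hH0
  obtain ⟨z, hz, hz1⟩ : ∃ z ∈ H0, z ≠ 1 := by
    by_contra hno
    push Not at hno
    refine his fun l hl => ?_
    obtain ⟨o, ho, h, hh, rfl⟩ := hLsplit l ((le_sup_left : Ms i.succ ≤ L) hl)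
    rw [hno h hh, mul_one]; exact ho
  have hHO : ∀ A : Subgroup G, A ≤ H → (Nat.card A).Coprime (Nat.card O) := fun A hA =>
    (hOc.coprime_dvd_right (card_dvd_of_le hA)).symm
  have hONH : ∀ o ∈ O, o ∈ normalizer (H : Set G) → ∀ h ∈ H, o * h = h * o := by
    intro o ho hoN h hh
    have h1 : o * h * o⁻¹ * h⁻¹ ∈ H := mul_mem ((mem_normalizer_iff.1 hoN h).1 hh) (inv_mem hh)
    have h3 : o * h * o⁻¹ * h⁻¹ ∈ O := by
      rw [show o * h * o⁻¹ * h⁻¹ = o * (h * o⁻¹ * h⁻¹) by group]
      exact mul_mem ho (hOn.conj_mem _ (inv_mem ho) h)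
    have h4 := Lib.Coprime.inf_eq_bot_of_coprime hOc ▸ mem_inf.2 ⟨h3, h1⟩
    rw [mem_bot, mul_inv_eq_one, mul_inv_eq_iff_eq_mul] at h4
    exact h4
  have hOnot : ¬ O ≤ normalizer (H : Set G) := by
    intro hle
    refine hnn (normalizer_eq_top_iff.1 (top_le_iff.1 fun g _ => ?_))
    refine Lib.FPF.mem_normalizer_of_ti hTI (inf_le_right (a := L) hz) hz1 ?_
    obtain ⟨o, ho, h, hh, he⟩ := hLsplit _ (hLn.conj_mem z hz.1 g)
    refine mem_of_coprime_pow_mem H hOc ?_ ?_
    · rw [← he, (show Commute o h from hONH o ho (hle ho) h hh.2).mul_pow,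
        show o ^ Nat.card O = 1 from orderOf_dvd_iff_pow_eq_one.1 (O.orderOf_dvd_natCard ho), one_mul]
      exact pow_mem hh.2 _
    · rw [conj_pow, show z ^ Nat.card H = 1 from orderOf_dvd_iff_pow_eq_one.1 (H.orderOf_dvd_natCard hz.2),
        mul_one, mul_inv_cancel]
      exact one_mem H
  -- `H` is a Z-group
  have hrank : ∀ (r : ℕ) (B : Subgroup G), r.Prime → B ≤ H → (∀ x ∈ B, ∀ y ∈ B, x * y = y * x) →
      (∀ x ∈ B, x ^ r = 1) → Nat.card B = r ^ 2 → False := by
    intro r B hr hBH hBc hBexp hB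
    refine hOnot ?_
    rw [← Lib.Coprime.fixGen_eq_of_elementary hr hBc hBexp hB (hOnz B) (hHO B hBH)]
    exact iSup₂_le fun b hb => inf_le_right.trans (hcent b (hBH hb.1) hb.2)
  haveI hZ : IsZGroup H := by
    refine ⟨fun q hq S => ?_⟩
    haveI := Fact.mk hq
    by_contra hnc
    set A := (S : Subgroup H).map H.subtype
    have hnc' : ¬ IsCyclic A := fun h => hnc
      (isCyclic_of_surjective _ ((S : Subgroup H).equivMapOfInjective _ H.subtype_injective).symm.surjective)
    rcases eq_or_ne q 2 with rfl | hq2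
    · haveI := h2 S
      haveI : IsMulCommutative A := ⟨⟨fun a b => by
        obtain ⟨a', ha', hae⟩ := a.2
        obtain ⟨b', hb', hbe⟩ := b.2
        refine Subtype.ext ?_
        simp only [coe_mul, ← hae, ← hbe, ← map_mul]
        exact congrArg H.subtype (congrArg Subtype.val (mul_comm' (⟨a', ha'⟩ : (S : Subgroup H)) ⟨b', hb'⟩))⟩⟩
      obtain ⟨r, B, hr, hBA, hexp, hB⟩ := Lib.Coprime.exists_elementary_sq hnc'
      exact hrank r B hr (hBA.trans (map_subtype_le _))
        (fun x hx y hy => congrArg Subtype.val (mul_comm' (⟨x, hBA hx⟩ : A) ⟨y, hBA hy⟩)) hexp hB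
    · obtain ⟨U, hUA, -, ⟨hUcomm, hUexp⟩, hUcard, -, -⟩ := Lib.Uniq.exists_normal_pair hq2 (S.2.map _) hnc'
      haveI := hUcomm
      exact hrank q U hq (hUA.trans (map_subtype_le _))
        (fun x hx y hy => congrArg Subtype.val (mul_comm' (⟨x, hx⟩ : U) ⟨y, hy⟩)) hUexp hUcard
  -- `G = O N(H)`
  have htop : O ⊔ (Q ⊔ H) = ⊤ := by
    refine top_le_iff.1 fun g _ => ?_
    have hH0s : Group.IsSolvable H0 := Lib.Coprime.isSolvable_of_le inf_le_right inferInstance
    have hLeq : L ≤ H0 ⊔ O := fun l hl => by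
      obtain ⟨o, ho, h, hh, rfl⟩ := hLsplit l hl
      exact mul_mem ((le_sup_right : O ≤ H0 ⊔ O) ho) ((le_sup_left : H0 ≤ H0 ⊔ O) hh)
    obtain ⟨o, ho, hoe⟩ := Lib.Coprime.exists_conj_eq_of_le_sup (hOnz H0) (hHO H0 inf_le_right)
      (Or.inl hH0s) (B := MulAut.conj g • H0) (by
        rintro _ ⟨x, hx, rfl⟩
        exact hLeq (hLn.conj_mem x hx.1 g))
      (Nat.card_congr (equivSMul (MulAut.conj g) H0).toEquiv).symm
    have hmem : o⁻¹ * g ∈ normalizer (H : Set G) := by
      refine Lib.FPF.mem_normalizer_of_ti hTI (inf_le_right (a := L) hz) hz1 ?_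
      have : g * z * g⁻¹ ∈ MulAut.conj o • H0 := hoe ▸ ⟨z, hz, rfl⟩
      obtain ⟨h, hh, he⟩ := this
      have he' : o * h * o⁻¹ = g * z * g⁻¹ := he
      rw [show o⁻¹ * g * z * (o⁻¹ * g)⁻¹ = h by
        calc o⁻¹ * g * z * (o⁻¹ * g)⁻¹ = o⁻¹ * (g * z * g⁻¹) * o := by group
          _ = h := by rw [← he']; group]
      exact hh.2
    rw [← hQH'] at hmem
    have := mul_mem ((le_sup_left : O ≤ O ⊔ (Q ⊔ H)) ho) ((le_sup_right : Q ⊔ H ≤ O ⊔ (Q ⊔ H)) hmem)
    rwa [mul_inv_cancel_left] at this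
  -- orders
  have hcopQH : (Nat.card Q).Coprime (Nat.card H) := by
    have h := Lib.Coprime.card_sup_mul_card_inf_of_le_normalizer hQ
    rw [hQH, hQH', card_bot, mul_one, ← (H.subgroupOf (normalizer (H : Set G))).card_mul_index,
      Lib.Coprime.card_subgroupOf le_normalizer, mul_comm (Nat.card Q)] at h
    exact (Nat.eq_of_mul_eq_mul_left Nat.card_pos h).symm ▸ hHall.symm
  have hsolv : Group.IsSolvable Q ∨ Group.IsSolvable H := Or.inr inferInstance
  set M : Subgroup G := ⁅H, Q⁆ with hMdef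
  set D := H ⊓ centralizer (Q : Set G) with hD
  have hMH : M ≤ H := Lib.Coprime.commutator_le_of_le_normalizer' hQ
  have hMD : (Nat.card M).Coprime (Nat.card D) := by
    refine (Nat.coprime_of_dvd fun p hp hpD hpM => ?_).symm
    haveI := Fact.mk hp
    obtain ⟨x, hx⟩ := exists_prime_orderOf_dvd_card' (G := D) p hpD
    exact not_dvd_card_commutator hQ hcopQH x.2.1 x.2.2 (by rw [← hx, orderOf_coe]) hpM
  -- the complement
  set N0 := O ⊔ (Q ⊔ M) with hN0
  have hON0 : O ≤ N0 := le_sup_left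
  have hQN0 : Q ≤ N0 := le_sup_left.trans le_sup_right
  have hMN0 : M ≤ N0 := le_sup_right.trans le_sup_right
  have hN0n : N0.Normal := by
    rw [← normalizer_eq_top_iff, ← top_le_iff, ← htop]
    refine sup_le (hON0.trans le_normalizer) (sup_le (hQN0.trans le_normalizer) ?_)
    have key : ∀ h ∈ H, N0 ≤ N0.comap (MulAut.conj h).toMonoidHom := by
      intro h hh
      refine sup_le (fun o ho => hON0 (hOn.conj_mem o ho h)) (sup_le (fun q hq => ?_) (fun m hm => ?_))
      · have hc : ⁅h, q⁆ ∈ M := commutator_mem_commutator hh hq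
        show h * q * h⁻¹ ∈ N0
        rw [show h * q * h⁻¹ = ⁅h, q⁆ * q by rw [commutatorElement_def]; group]
        exact mul_mem (hMN0 hc) (hQN0 hq)
      · exact hMN0 ((mem_normalizer_iff.1 (Lib.Coprime.left_le_normalizer_commutator H Q hh) m).1 hm)
    intro h hh
    rw [mem_normalizer_iff]
    refine fun x => ⟨fun hx => key h hh hx, fun hx => ?_⟩
    have := key h⁻¹ (inv_mem hh) hx
    simpa [mul_assoc] using this
  have hN0c : (Nat.card N0).Coprime (Nat.card D) := by
    refine Nat.Coprime.coprime_dvd_left ?_ ((hOc.coprime_dvd_right (card_dvd_of_le inf_le_left)).mul_left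
      ((hcopQH.coprime_dvd_right (card_dvd_of_le inf_le_left)).mul_left hMD))
    have e1 := Lib.Coprime.card_sup_mul_card_inf_of_le_normalizer (hOnz (Q ⊔ M))
    have e2 : Nat.card (Q ⊔ M : Subgroup G) = Nat.card Q * Nat.card M :=
      Lib.Coprime.card_sup_of_coprime (Lib.Coprime.right_le_normalizer_commutator H Q)
        (hcopQH.coprime_dvd_right (card_dvd_of_le hMH))
    refine ⟨Nat.card ((Q ⊔ M) ⊓ O : Subgroup G), ?_⟩
    rw [hN0, sup_comm, e1, e2, mul_comm]
  haveI := hN0n
  have hsup : N0 ⊔ D = ⊤ := by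
    refine top_le_iff.1 (htop ▸ sup_le (hON0.trans le_sup_left) (sup_le (hQN0.trans le_sup_left) ?_))
    conv_lhs => rw [← Lib.Coprime.commutator_sup_centralizer hQ hcopQH hsolv]
    exact sup_le (hMN0.trans le_sup_left) le_sup_right
  have hcard : Nat.card N0 * Nat.card D = Nat.card G := by
    rw [← Lib.Coprime.card_sup_of_coprime (A := D) (N := N0) (by rw [normalizer_eq_top]; exact le_top)
      hN0c.symm |>.trans (mul_comm _ _), sup_comm, hsup, card_top]
  refine ⟨?_, N0, hN0n, isComplement'_of_coprime hcard hN0c⟩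
  have : D.index = Nat.card N0 := by
    have := D.card_mul_index
    rw [← hcard, mul_comm (Nat.card N0)] at this
    exact Nat.eq_of_mul_eq_mul_left Nat.card_pos this
  rw [this]
  exact hN0c.symm

end Cfsg.Agent.Lib.GenStruct
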