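import Mathlib

set_option autoImplicit false
open Polynomial

namespace Cfsg.Agent.Lib.GenStruct.ThreeOrbits

variable {p q : ℕ} [Fact p.Prime] [hqf : Fact q.Prime] {V : Type*} [AddCommGroup V] [Module (ZMod p) V]
  {T : Module.End (ZMod p) V}

lemma cyclotomic_apply_eq_zero (hT : T ^ q = 1) (hfix : ∀ v, T v = v → v = 0) :
    aeval T (cyclotomic q (ZMod p)) = 0 := by
  refine LinearMap.ext fun v => ?_
  set w := aeval T (cyclotomic q (ZMod p)) v
  have h : aeval T ((X - 1) * cyclotomic q (ZMod p)) = 0 := by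
    rw [mul_comm, cyclotomic_prime_mul_X_sub_one, map_sub, map_pow, aeval_X, map_one, hT, sub_self]
  have h2 := LinearMap.congr_fun h v
  rw [map_mul, map_sub, aeval_X, map_one, Module.End.mul_apply, LinearMap.sub_apply, Module.End.one_apply,
    LinearMap.zero_apply, sub_eq_zero] at h2
  exact hfix _ h2

/-- the degree of an irreducible factor of the cyclotomic polynomial -/
lemma natDegree_factor (hpq : p ≠ q) {m : (ZMod p)[X]} (hm : m ∣ cyclotomic q (ZMod p)) (hirr : Irreducible m) :
    m.natDegree = orderOf (p : ZMod q) := by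
  have hcop : p.Coprime q := (Nat.coprime_primes Fact.out Fact.out).2 hpq
  rw [natDegree_of_dvd_cyclotomic_of_irreducible (f := 1) (by rw [ZMod.card, pow_one]) hcop hm hirr,
    ← orderOf_units, ZMod.coe_unitOfCoprime, pow_one]

/-- forward direction: transitivity forces `p` to be a primitive root mod `q` -/
lemma ord_eq [Finite V] [Nontrivial V] (hpq : p ≠ q) (hT : T ^ q = 1) (hfix : ∀ v, T v = v → v = 0)
    (hk : ∀ k : ℕ, ¬ q ∣ k → ∃ A : V ≃+ V, ∀ v, A (T v) = (T ^ k) (A v))
    (htr : ∀ v w : V, v ≠ 0 → w ≠ 0 → ∃ (A : V ≃+ V) (k : ℕ), (∀ z, A (T z) = (T ^ k) (A z)) ∧ A v = w) :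
    orderOf (p : ZMod q) = q - 1 := by
  classical
  have hconj : ∀ (A : V ≃+ V) (k : ℕ), (∀ z, A (T z) = (T ^ k) (A z)) →
      ∀ (f : (ZMod p)[X]) (z : V), A (aeval T f z) = aeval (T ^ k) f (A z) := by
    intro A k hA f
    induction f using Polynomial.induction_on' with
    | add f g hf hg => intro z; simp only [map_add, LinearMap.add_apply, hf, hg]
    | monomial n c =>
      intro z
      simp only [aeval_monomial, Module.algebraMap_end_apply, Module.End.mul_apply]
      refine (ZMod.map_smul A.toAddMonoidHom _ _).trans ?_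
      congr 1
      induction n generalizing z with
      | zero => rfl
      | succ n ih =>
        rw [pow_succ, pow_succ, Module.End.mul_apply, Module.End.mul_apply]
        exact (ih (T z)).trans (by rw [AddEquiv.coe_toAddMonoidHom] at *; rw [hA])
  let cyc : V → Set V := fun v => Set.range fun f : (ZMod p)[X] => aeval T f v
  have hsub : ∀ v w, w ∈ cyc v → cyc w ⊆ cyc v := by
    rintro v _ ⟨f, rfl⟩ _ ⟨g, rfl⟩
    exact ⟨g * f, by simp only [map_mul, Module.End.mul_apply]⟩
  have hcard : ∀ v w : V, v ≠ 0 → w ≠ 0 → (cyc v).ncard ≤ (cyc w).ncard := by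
    intro v w hv hw
    obtain ⟨A, k, hA, hAv⟩ := htr v w hv hw
    rw [← Set.ncard_image_of_injective (cyc v) A.injective]
    refine Set.ncard_le_ncard ?_ (Set.toFinite _)
    rintro _ ⟨_, ⟨f, rfl⟩, rfl⟩
    exact ⟨f.comp (X ^ k), by simp only [aeval_comp, map_pow, aeval_X, hconj A k hA, hAv]⟩
  have htf : ∀ (f : (ZMod p)[X]) (v : V), v ≠ 0 → aeval T f v = 0 → aeval T f = 0 := by
    intro f v hv hfv
    refine LinearMap.ext fun w => ?_
    rw [LinearMap.zero_apply]
    by_contra hfw
    have hw : w ≠ 0 := fun h0 => hfw (by rw [h0, map_zero])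
    by_cases hmem : w ∈ cyc v
    · obtain ⟨g, rfl⟩ := hmem
      apply hfw
      simp only
      rw [← Module.End.mul_apply, ← map_mul, mul_comm, map_mul, Module.End.mul_apply, hfv, map_zero]
    · have hu : v + w ≠ 0 := by
        intro h0
        refine hmem ⟨-1, ?_⟩
        simp only [map_neg, map_one, LinearMap.neg_apply, Module.End.one_apply]
        exact (eq_neg_of_add_eq_zero_right h0).symm
      have hfu : aeval T f w ∈ cyc (v + w) := ⟨f, by simp only [map_add, hfv, zero_add]⟩
      have e1 : cyc (aeval T f w) = cyc (v + w) :=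
        Set.eq_of_subset_of_ncard_le (hsub _ _ hfu) (hcard _ _ hu hfw) (Set.toFinite _)
      have h1 : v + w ∈ cyc w := by
        refine hsub w (aeval T f w) ⟨f, rfl⟩ ?_
        rw [e1]
        exact ⟨1, by simp⟩
      obtain ⟨g, hg⟩ := h1
      have h2 : v ∈ cyc w := ⟨g - 1, by simp only at hg; simp [hg]⟩
      have e2 : cyc v = cyc w := Set.eq_of_subset_of_ncard_le (hsub _ _ h2) (hcard _ _ hw hv) (Set.toFinite _)
      exact hmem (e2 ▸ ⟨1, by simp⟩)
  have hint : IsIntegral (ZMod p) T := IsIntegral.of_finite (ZMod p) T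
  set m := minpoly (ZMod p) T with hm
  have hdvd : m ∣ cyclotomic q (ZMod p) := minpoly.dvd _ _ (cyclotomic_apply_eq_zero hT hfix)
  have hirr : Irreducible m := by
    refine (irreducible_of_monic (minpoly.monic hint) (minpoly.ne_one _ _)).2 fun f g hf hg hfg => ?_
    obtain ⟨v, hv⟩ := exists_ne (0 : V)
    have h0 : aeval T f (aeval T g v) = 0 := by
      rw [← Module.End.mul_apply, ← map_mul, hfg, minpoly.aeval, LinearMap.zero_apply]
    have hfmin : aeval T f = 0 ∨ aeval T g = 0 := by
      by_cases hgv : aeval T g v = 0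
      · exact Or.inr (htf g v hv hgv)
      · exact Or.inl (htf f _ hgv h0)
    rcases hfmin with h | h
    · refine Or.inr (hg.natDegree_eq_zero.1 ?_)
      have h1 : m.natDegree ≤ f.natDegree := natDegree_le_natDegree (minpoly.min _ _ hf h)
      have h2 : m.natDegree = f.natDegree + g.natDegree := by rw [hm, ← hfg, hf.natDegree_mul hg]
      omega
    · refine Or.inl (hf.natDegree_eq_zero.1 ?_)
      have h1 : m.natDegree ≤ g.natDegree := natDegree_le_natDegree (minpoly.min _ _ hg h)
      have h2 : m.natDegree = f.natDegree + g.natDegree := by rw [hm, ← hfg, hf.natDegree_mul hg]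
      omega
  have hd := natDegree_factor hpq hdvd hirr
  have : Fact (Irreducible m) := ⟨hirr⟩
  set r : AdjoinRoot m := AdjoinRoot.root m with hr
  have hrr : aeval r m = 0 := by rw [AdjoinRoot.aeval_eq, AdjoinRoot.mk_self]
  have hqne : ((q : ℕ) : AdjoinRoot m) ≠ 0 := by
    rw [← map_natCast (algebraMap (ZMod p) (AdjoinRoot m)), _root_.map_ne_zero, Ne, CharP.cast_eq_zero_iff (ZMod p) p q,
      Nat.prime_dvd_prime_iff_eq Fact.out Fact.out]
    exact hpq
  have hprim : IsPrimitiveRoot r q := by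
    have : NeZero (q : AdjoinRoot m) := ⟨hqne⟩
    refine isRoot_cyclotomic_iff.1 ?_
    rw [IsRoot, ← map_cyclotomic q (algebraMap (ZMod p) (AdjoinRoot m)), eval_map, ← aeval_def]
    exact zero_dvd_iff.1 (hrr ▸ map_dvd (aeval r) hdvd)
  have hroot : ∀ k ∈ Finset.Icc 1 (q - 1), r ^ k ∈ (m.aroots (AdjoinRoot m)).toFinset := by
    intro k hk'
    rw [Finset.mem_Icc] at hk'
    have hkq : ¬ q ∣ k := Nat.not_dvd_of_pos_of_lt hk'.1 (by have := hqf.out.two_le; omega)
    obtain ⟨A, hA⟩ := hk k hkq
    have h0 : aeval T (m.comp (X ^ k)) = 0 := by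
      refine LinearMap.ext fun z => ?_
      obtain ⟨z, rfl⟩ := A.surjective z
      rw [LinearMap.zero_apply, aeval_comp, map_pow, aeval_X, ← hconj A k hA, hm, minpoly.aeval,
        LinearMap.zero_apply, map_zero]
    rw [Multiset.mem_toFinset, mem_aroots]
    refine ⟨hirr.ne_zero, ?_⟩
    have := map_dvd (aeval r) (minpoly.dvd _ _ h0)
    rw [← hm, hrr, zero_dvd_iff, aeval_comp, map_pow, aeval_X] at this
    exact this
  have hle : q - 1 ≤ m.natDegree := by
    have h1 := Finset.card_le_card_of_injOn (fun k => r ^ k) hroot ?_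
    · rw [Nat.card_Icc, Nat.add_sub_cancel] at h1
      exact h1.trans ((Multiset.toFinset_card_le _).trans ((card_roots' _).trans natDegree_map_le))
    · intro a ha b hb hab
      rw [Finset.coe_Icc, Set.mem_Icc] at ha hb
      exact hprim.pow_inj (by omega) (by omega) hab
  refine le_antisymm ?_ (hle.trans hd.le)
  rw [← hd]
  calc m.natDegree ≤ (cyclotomic q (ZMod p)).natDegree := natDegree_le_of_dvd hdvd (cyclotomic_ne_zero _ _)
    _ = q - 1 := by rw [natDegree_cyclotomic, Nat.totient_prime hqf.out]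

/-- the reverse direction: transitivity of the semilinear maps -/
lemma transitive [Finite V] (hpq : p ≠ q) (hT : T ^ q = 1) (hfix : ∀ v, T v = v → v = 0)
    (hord : orderOf (p : ZMod q) = q - 1) {k : ℕ} (hk : ¬ q ∣ k) {v w : V} (hv : v ≠ 0) (hw : w ≠ 0) :
    ∃ A : V ≃+ V, (∀ z, A (T z) = (T ^ k) (A z)) ∧ A v = w := by
  classical
  set Φ := cyclotomic q (ZMod p) with hΦ
  have hirr : Irreducible Φ := by
    obtain ⟨m, hmirr, hmdvd⟩ := WfDvdMonoid.exists_irreducible_factor (a := Φ)
      (fun h => by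
        have h0 := natDegree_eq_zero_of_isUnit h
        rw [natDegree_cyclotomic, Nat.totient_prime hqf.out] at h0
        have := hqf.out.two_le; omega) (cyclotomic_ne_zero _ _)
    refine (associated_of_dvd_of_natDegree_le hmdvd (cyclotomic_ne_zero _ _) ?_).irreducible hmirr
    rw [natDegree_factor hpq hmdvd hmirr, hord, natDegree_cyclotomic, Nat.totient_prime hqf.out]
  have : Fact (Irreducible Φ) := ⟨hirr⟩
  have hΦ0 := cyclotomic_apply_eq_zero hT hfix
  let L := AdjoinRoot Φ
  let ψ : L →+* Module.End (ZMod p) V := Ideal.Quotient.lift _ (aeval T).toRingHom (by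
    intro a ha
    obtain ⟨c, rfl⟩ := Ideal.mem_span_singleton'.1 ha
    change aeval T (c * Φ) = 0
    rw [map_mul, hΦ0, mul_zero])
  have hψr : ψ (AdjoinRoot.root Φ) = T := aeval_X T
  letI : Module L V := Module.compHom V ψ
  have hsmul : ∀ z : V, T z = AdjoinRoot.root Φ • z := fun z => by
    change T z = ψ (AdjoinRoot.root Φ) z
    rw [hψr]
  have hsmulk : ∀ z : V, (T ^ k) z = (AdjoinRoot.root Φ) ^ k • z := fun z => by
    change _ = ψ ((AdjoinRoot.root Φ) ^ k) z
    rw [map_pow, hψr]
  have hqne : NeZero (q : L) := ⟨by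
    rw [← map_natCast (algebraMap (ZMod p) L), _root_.map_ne_zero, Ne, CharP.cast_eq_zero_iff (ZMod p) p q,
      Nat.prime_dvd_prime_iff_eq Fact.out Fact.out]
    exact hpq⟩
  have hprim : IsPrimitiveRoot (AdjoinRoot.root Φ) q := by
    refine isRoot_cyclotomic_iff.1 ?_
    rw [IsRoot, ← map_cyclotomic q (algebraMap (ZMod p) L), eval_map, ← aeval_def, AdjoinRoot.aeval_eq,
      AdjoinRoot.mk_self]
  have hroot : Φ.eval₂ (Algebra.ofId (ZMod p) L) ((AdjoinRoot.root Φ) ^ k) = 0 := by
    have h1 := (hprim.pow_of_coprime k ((hqf.out.coprime_iff_not_dvd.2 hk).symm)).isRoot_cyclotomic hqf.out.pos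
    rw [IsRoot, ← map_cyclotomic q (algebraMap (ZMod p) L), eval_map] at h1
    exact h1
  let σ : L →ₐ[ZMod p] L := AdjoinRoot.liftAlgHom Φ (Algebra.ofId (ZMod p) L) _ hroot
  have hσr : σ (AdjoinRoot.root Φ) = (AdjoinRoot.root Φ) ^ k := AdjoinRoot.liftAlgHom_root ..
  have : Module.Finite (ZMod p) L := (cyclotomic.monic q (ZMod p)).finite_adjoinRoot
  have : Finite L := Module.finite_of_finite (ZMod p)
  have hσb : Function.Bijective σ := ⟨σ.toRingHom.injective, Finite.surjective_of_injective σ.toRingHom.injective⟩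
  let σe : L ≃+* L := RingEquiv.ofBijective σ.toRingHom hσb
  have hliv : LinearIndepOn L id ({v} : Set V) := (linearIndepOn_singleton_iff L).2 hv
  have hliw : LinearIndepOn L id ({w} : Set V) := (linearIndepOn_singleton_iff L).2 hw
  let b1 := Module.Basis.extend hliv
  let b2 := Module.Basis.extend hliw
  let i1 : hliv.extend (Set.subset_univ _) := ⟨v, hliv.subset_extend _ rfl⟩
  let i2 : hliw.extend (Set.subset_univ _) := ⟨w, hliw.subset_extend _ rfl⟩
  have hb1 : b1 i1 = v := Module.Basis.extend_apply_self hliv i1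
  have hb2 : b2 i2 = w := Module.Basis.extend_apply_self hliw i2
  let e0 := b1.indexEquiv b2
  let e := e0.trans (Equiv.swap (e0 i1) i2)
  have hei : e i1 = i2 := by simp [e]
  cases nonempty_fintype (hliv.extend (Set.subset_univ ({v} : Set V)) : Set V)
  cases nonempty_fintype (hliw.extend (Set.subset_univ ({w} : Set V)) : Set V)
  let b2' := b2.reindex e.symm
  have hb2' : b2' i1 = w := by rw [Module.Basis.reindex_apply, Equiv.symm_symm, hei, hb2]
  let A : V ≃+ V := (b1.equivFun.toAddEquiv.trans (AddEquiv.piCongrRight fun _ => σe.toAddEquiv)).trans b2'.equivFun.symm.toAddEquiv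
  have hA : ∀ (l : L) (z : V), A (l • z) = σ l • A z := by
    intro l z
    change b2'.equivFun.symm (fun i => σ (b1.equivFun (l • z) i)) = σ l • b2'.equivFun.symm (fun i => σ (b1.equivFun z i))
    rw [← map_smul]
    congr 1
    funext i
    rw [map_smul, Pi.smul_apply, smul_eq_mul, map_mul, Pi.smul_apply, smul_eq_mul]
  refine ⟨A, fun z => ?_, ?_⟩
  · rw [hsmul, hA, hσr, hsmulk]
  · change b2'.equivFun.symm (fun i => σ (b1.equivFun v i)) = w
    rw [← hb2', congrArg b1.equivFun hb1.symm]
    apply b2'.equivFun.injective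
    rw [LinearEquiv.apply_symm_apply]
    funext i
    rw [Module.Basis.equivFun_apply, Module.Basis.equivFun_apply, Module.Basis.repr_self, Module.Basis.repr_self]
    by_cases hi : i = i1 <;> simp [Finsupp.single_apply, hi, Ne.symm]

end Cfsg.Agent.Lib.GenStruct.ThreeOrbits
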